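import Mathlib
import Cfsg.Agent.H01.SL2Ord4
import Cfsg.Agent.H09.SLBasic

/-!
# Central products of two copies of `SL₂(q)` (namespace `H08.CP`)

`s3209` : two classes of involutions; `s3210` : an element of the centralizer fixes or swaps the factors.
-/

set_option autoImplicit false
set_option linter.unusedSectionVars false
set_option linter.unusedVariables false
open Subgroup H01.SL4
open Matrix hiding J zpow_mul zpow_add one_zpow

namespace H08.CP

section SL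
variable {F : Type*} [Field F] [Fintype F]

/-- upper unipotent -/
def U (s : F) : SpecialLinearGroup (Fin 2) F := ⟨!![1, s; 0, 1], by simp [Matrix.det_fin_two_of]⟩
/-- lower unipotent -/
def Lw (s : F) : SpecialLinearGroup (Fin 2) F := ⟨!![1, 0; s, 1], by simp [Matrix.det_fin_two_of]⟩

theorem cU {x : SpecialLinearGroup (Fin 2) F} {s : F} (hs : s ≠ 0) (h : x * U s = U s * x) : x 1 0 = 0 ∧ x 0 0 = x 1 1 := by
  obtain ⟨a, b, c, d⟩ := ents h
  rw [ent] at a b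
  simp [U] at a b
  refine ⟨a.resolve_left hs, mul_right_cancel₀ hs ?_⟩
  linear_combination b

theorem scal {x : SpecialLinearGroup (Fin 2) F} {s t : F} (hs : s ≠ 0) (ht : t ≠ 0) (h : x * U s = U s * x)
    (k : x * Lw t = Lw t * x) : x = 1 ∨ x = -1 := by
  obtain ⟨h1, h2⟩ := cU hs h
  obtain ⟨a, b, c, d⟩ := ents k
  rw [ent] at a
  simp [Lw] at a
  have h3 : x 0 1 = 0 := a.resolve_right ht
  have e := det2 x
  rw [h1, h3, ← h2] at e
  rcases mul_self_eq_one_iff.1 (show x 0 0 * x 0 0 = 1 by linear_combination e) with e | e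
  · exact Or.inl (ext4 (by simp [e]) (by simp [h3]) (by simp [h1]) (by simp [← h2, e]))
  · exact Or.inr (ext4 (by simp [e]) (by simp [h3]) (by simp [h1]) (by simp [← h2, e]))

theorem no_neg (hF : Odd (Fintype.card F)) {b y : SpecialLinearGroup (Fin 2) F} (hy : y 0 0 + y 1 1 = 2)
    (h : b * y = -(y * b)) : False := by
  have h2 := two_ne hF
  obtain ⟨p, q, r, s⟩ := ents h
  simp only [SpecialLinearGroup.coe_neg, Matrix.neg_apply, ent] at p q r s
  have d := det2 b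
  apply mul_ne_zero h2 h2
  linear_combination b 1 1 * p - b 1 0 * q - b 0 1 * r + b 0 0 * s - 2 * hy - 2 * (y 0 0 + y 1 1) * d

theorem z2' (hF : Odd (Fintype.card F)) {b : SpecialLinearGroup (Fin 2) F} (h : ∀ y, b * y = y * b ∨ b * y = -(y * b)) :
    b = 1 ∨ b = -1 :=
  scal one_ne_zero one_ne_zero ((h (U 1)).resolve_right (no_neg hF (by simp [U]; norm_num)))
    ((h (Lw 1)).resolve_right (no_neg hF (by simp [Lw]; norm_num)))

theorem ind0 {N M : Subgroup (SpecialLinearGroup (Fin 2) F)} [hN : N.Normal] (h1 : -1 ∈ N)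
    (hc : ∀ x ∈ N, ∀ y ∈ M, x * y = y * x) (hp : ∀ g, ∃ a ∈ N, ∃ b ∈ M, g = a * b) {a : SpecialLinearGroup (Fin 2) F}
    (ha : a ∈ N) (h0 : a * U 1 = U 1 * a) (h01 : a 0 1 ≠ 0) : N = ⊤ := by
  obtain ⟨e1, e2⟩ := cU one_ne_zero h0
  have d := det2 a
  rw [e1, ← e2] at d
  obtain ⟨s, hs, hU⟩ : ∃ s : F, s ≠ 0 ∧ U s ∈ N := by
    rcases mul_self_eq_one_iff.1 (show a 0 0 * a 0 0 = 1 by linear_combination d) with e | e
    · exact ⟨a 0 1, h01, by rwa [show U (a 0 1) = a from ext4 (by simp [U, e]) (by simp [U]) (by simp [U, e1]) (by simp [U, ← e2, e])]⟩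
    · refine ⟨-a 0 1, neg_ne_zero.2 h01, ?_⟩
      rw [show U (-a 0 1) = -1 * a from ext4 (by simp [U, e]) (by simp [U]) (by simp [U, e1]) (by simp [U, ← e2, e])]
      exact N.mul_mem h1 ha
  have hL : Lw (-s) ∈ N := by
    have := hN.conj_mem _ hU (J F)
    rwa [show J F * U s * (J F)⁻¹ = Lw (-s) from mul_inv_eq_iff_eq_mul.2
      (ext4 (by rw [ent, ent]; simp [U, Lw, J]) (by rw [ent, ent]; simp [U, Lw, J]) (by rw [ent, ent]; simp [U, Lw, J])
        (by rw [ent, ent]; simp [U, Lw, J]))] at this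
  refine eq_top_iff.2 fun g _ => ?_
  obtain ⟨x, hx, y, hy, rfl⟩ := hp g
  rcases scal hs (neg_ne_zero.2 hs) (hc _ hU y hy).symm (hc _ hL y hy).symm with e | e
  · rw [e, mul_one]; exact hx
  · rw [e]; exact N.mul_mem hx h1

theorem ind' {N M : Subgroup (SpecialLinearGroup (Fin 2) F)} [hN : N.Normal] [hM : M.Normal] (h1 : -1 ∈ N) (h2 : -1 ∈ M)
    (hc : ∀ x ∈ N, ∀ y ∈ M, x * y = y * x) (hp : ∀ g, ∃ a ∈ N, ∃ b ∈ M, g = a * b) : N = ⊤ ∨ M = ⊤ := by
  obtain ⟨a, ha, b, hb, e⟩ := hp (U 1)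
  have k := hc a ha b hb
  have ca : a * U 1 = U 1 * a := by rw [e, mul_assoc, ← k]
  have cb : b * U 1 = U 1 * b := by rw [e, ← mul_assoc, ← k]
  by_cases h : a 0 1 = 0
  · refine Or.inr (ind0 h2 (fun x hx y hy => (hc y hy x hx).symm) (fun g => ?_) hb cb fun h' => ?_)
    · obtain ⟨x, hx, y, hy, rfl⟩ := hp g
      exact ⟨y, hy, x, hx, hc x hx y hy⟩
    · have := (ents e.symm).2.1
      simp [h, h', U] at this
  · exact Or.inl (ind0 h1 hc hp ha ca h)

end SL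

variable {G : Type*} [Group G]

/-- further properties of a copy of `SL₂(q)` -/
structure R (L : Subgroup G) (j : G) : Prop where
  z2 : ∀ b ∈ L, (∀ y ∈ L, b * y = y * b ∨ b * y = y * b * j) → b = 1 ∨ b = j
  ind : ∀ N M : Subgroup G, j ∈ N → j ∈ M → (∀ g ∈ L, ∀ x ∈ N, g * x * g⁻¹ ∈ N) → (∀ g ∈ L, ∀ x ∈ M, g * x * g⁻¹ ∈ M) →
    (∀ x ∈ N, ∀ y ∈ M, x * y = y * x) → (∀ g ∈ L, ∃ a ∈ N ⊓ L, ∃ b ∈ M ⊓ L, g = a * b) → L ≤ N ∨ L ≤ M

theorem r_of_equiv {F : Type*} [Field F] [Fintype F] (hF : Odd (Fintype.card F)) {L : Subgroup G}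
    (e : L ≃* SpecialLinearGroup (Fin 2) F) {j : G} (hj : orderOf j = 2) (hjL : j ∈ L) : R L j := by
  have hj2 : j * j = 1 := by rw [← pow_two, ← hj, pow_orderOf_eq_one]
  have hej : e ⟨j, hjL⟩ = -1 := by
    rcases sq_one hF (w := e ⟨j, hjL⟩) (by rw [← map_mul, ← map_one e]; congr 1; exact Subtype.ext hj2)
      with h | h
    · have : j = 1 := congrArg Subtype.val ((map_eq_one_iff e e.injective).1 h)
      rw [this, orderOf_one] at hj
      omega
    · exact h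
  refine ⟨fun b hb h => ?_, fun N M hN hM nN nM hc hp => ?_⟩
  · rcases z2' hF (b := e ⟨b, hb⟩) (fun y => by
      obtain ⟨y, rfl⟩ := e.surjective y
      rcases h y y.2 with k | k
      · left; rw [← map_mul, ← map_mul]; congr 1; exact Subtype.ext k
      · right; rw [← mul_neg_one, ← hej, ← map_mul, ← map_mul, ← map_mul]; congr 1; exact Subtype.ext k) with k | k
    · exact Or.inl (congrArg Subtype.val ((map_eq_one_iff e e.injective).1 k))
    · exact Or.inr (congrArg Subtype.val (e.injective (k.trans hej.symm)))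
  · let f : SpecialLinearGroup (Fin 2) F →* G := L.subtype.comp e.symm.toMonoidHom
    have fL : ∀ x, f x ∈ L := fun x => (e.symm x).2
    have fs : ∀ g ∈ L, ∃ x, f x = g := fun g hg => ⟨e ⟨g, hg⟩, by simp [f]⟩
    have fi : Function.Injective f := Subtype.val_injective.comp e.symm.injective
    have fj : f (-1) = j := by rw [← hej]; simp [f]
    haveI : (N.comap f).Normal := ⟨fun x hx g => by simpa using nN _ (fL g) _ hx⟩
    haveI : (M.comap f).Normal := ⟨fun x hx g => by simpa using nM _ (fL g) _ hx⟩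
    rcases ind' (N := N.comap f) (M := M.comap f) (by rwa [mem_comap, fj]) (by rwa [mem_comap, fj])
      (fun x hx y hy => fi (by rw [map_mul, map_mul]; exact hc _ hx _ hy)) (fun g => by
        obtain ⟨a, ha, b, hb, k⟩ := hp _ (fL g)
        obtain ⟨a, rfl⟩ := fs a ha.2
        obtain ⟨b, rfl⟩ := fs b hb.2
        exact ⟨a, ha.1, b, hb.1, fi (by rw [map_mul]; exact k)⟩) with k | k
    · refine Or.inl fun g hg => ?_
      obtain ⟨x, rfl⟩ := fs g hg
      exact (k ▸ mem_top x : x ∈ N.comap f)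
    · refine Or.inr fun g hg => ?_
      obtain ⟨x, rfl⟩ := fs g hg
      exact (k ▸ mem_top x : x ∈ M.comap f)

theorem mem_sup' {A B : Subgroup G} (hc : ∀ x ∈ A, ∀ y ∈ B, x * y = y * x) {g : G} (hg : g ∈ A ⊔ B) :
    ∃ a ∈ A, ∃ b ∈ B, g = a * b := by
  rw [sup_eq_closure] at hg
  induction hg using closure_induction with
  | mem x hx =>
    rcases hx with hx | hx
    · exact ⟨x, hx, 1, B.one_mem, (mul_one x).symm⟩
    · exact ⟨1, A.one_mem, x, hx, (one_mul x).symm⟩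
  | one => exact ⟨1, A.one_mem, 1, B.one_mem, (mul_one 1).symm⟩
  | mul x y _ _ hx hy =>
    obtain ⟨a, ha, b, hb, rfl⟩ := hx
    obtain ⟨c, hc', d, hd, rfl⟩ := hy
    exact ⟨a * c, A.mul_mem ha hc', b * d, B.mul_mem hb hd, by rw [mul_assoc, ← mul_assoc b, ← hc c hc' b hb]; group⟩
  | inv x _ hx =>
    obtain ⟨a, ha, b, hb, rfl⟩ := hx
    exact ⟨a⁻¹, A.inv_mem ha, b⁻¹, B.inv_mem hb, by rw [hc a ha b hb, _root_.mul_inv_rev]⟩

theorem zp2 {j x : G} (hj : orderOf j = 2) (hx : x ∈ zpowers j) : x = 1 ∨ x = j := by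
  have : Finite (zpowers j) := Nat.finite_of_card_ne_zero (by rw [Nat.card_zpowers, hj]; omega)
  obtain ⟨k, rfl⟩ := hx
  have h2 : j ^ (2 : ℤ) = 1 := by rw [zpow_two, ← pow_two, ← hj, pow_orderOf_eq_one]
  rcases Int.even_or_odd' k with ⟨m, rfl | rfl⟩
  · left; simp only; rw [zpow_mul, h2, one_zpow]
  · right; simp only; rw [zpow_add, zpow_mul, h2, one_zpow, one_mul, zpow_one]

theorem s3209 {A B : Subgroup G} {j : G} (hA : Q A j) (hB : Q B j) (hc : ∀ x ∈ A, ∀ y ∈ B, x * y = y * x) (hj : orderOf j = 2)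
    (hm : A ⊓ B = zpowers j) :
    ∃ x ∈ A ⊔ B, orderOf x = 2 ∧ x ≠ j ∧ ∀ y ∈ A ⊔ B, orderOf y = 2 → y = j ∨ ∃ g ∈ A ⊔ B, g * x * g⁻¹ = y := by
  haveI : Fact (Nat.Prime 2) := ⟨Nat.prime_two⟩
  have hj2 : j * j = 1 := by rw [← pow_two, ← hj, pow_orderOf_eq_one]
  have hj1 : j ≠ 1 := fun h => by rw [h, orderOf_one] at hj; omega
  have jm : j ∈ A ⊓ B := hm ▸ mem_zpowers j
  obtain ⟨a, ha, a2⟩ := hA.ex
  obtain ⟨b, hb, b2⟩ := hB.ex
  have sq : ∀ x ∈ A, ∀ y ∈ B, x * y * (x * y) = x * x * (y * y) := fun x hx y hy => by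
    rw [mul_assoc, ← mul_assoc y, ← hc x hx y hy]; group
  have nB : a ∉ B := fun h => by
    rcases zp2 hj (hm.le ⟨ha, h⟩) with k | k
    · rw [k, mul_one] at a2; exact hj1 a2.symm
    · rw [k, hj2] at a2; exact hj1 a2.symm
  refine ⟨a * b, mul_mem_sup ha hb, orderOf_eq_prime (by rw [pow_two, sq a ha b hb, a2, b2, hj2]) fun h => nB ?_, fun h => nB ?_,
    fun y hy oy => ?_⟩
  · rw [eq_inv_of_mul_eq_one_left h]; exact B.inv_mem hb
  · rw [eq_mul_inv_of_mul_eq h]; exact B.mul_mem jm.2 (B.inv_mem hb)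
  · obtain ⟨c, hc', d, hd, rfl⟩ := mem_sup' hc hy
    have y2 : c * c * (d * d) = 1 := by rw [← sq c hc' d hd, ← pow_two, ← oy, pow_orderOf_eq_one]
    have y1 : c * d ≠ 1 := fun h => by rw [h, orderOf_one] at oy; omega
    have : c * c ∈ A ⊓ B := ⟨A.mul_mem hc' hc', by rw [eq_inv_of_mul_eq_one_left y2]; exact B.inv_mem (B.mul_mem hd hd)⟩
    rcases zp2 hj (hm.le this) with k | k
    · rw [k, one_mul] at y2
      left
      rcases hA.one c hc' k with e | e <;> rcases hB.one d hd y2 with f | f <;> rw [e, f] at y1 ⊢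
      · simp at y1
      · exact one_mul j
      · exact mul_one j
      · exact absurd hj2 y1
    · have k' : d * d = j := by rw [k] at y2; exact (mul_left_cancel (y2.trans hj2.symm))
      obtain ⟨u, hu, e⟩ := hA.conj a ha c hc' a2 k
      obtain ⟨v, hv, f⟩ := hB.conj b hb d hd b2 k'
      refine Or.inr ⟨u * v, mul_mem_sup hu hv, ?_⟩
      rw [← e, ← f]
      calc u * v * (a * b) * (u * v)⁻¹ = u * (v * a) * b * v⁻¹ * u⁻¹ := by group
        _ = u * a * ((v * b * v⁻¹) * u⁻¹) := by rw [← hc a ha v hv]; group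
        _ = _ := by rw [← hc _ (A.inv_mem hu) _ (B.mul_mem (B.mul_mem hv hb) (B.inv_mem hv))]; group

/-- the data of a central product decomposition -/
structure D (A B : Subgroup G) (j : G) : Prop where
  qa : Q A j
  qb : Q B j
  ra : R A j
  rb : R B j
  c : ∀ x ∈ A, ∀ y ∈ B, x * y = y * x
  o : orderOf j = 2
  m : A ⊓ B = zpowers j

theorem D.symm {A B : Subgroup G} {j : G} (h : D A B j) : D B A j :=
  ⟨h.qb, h.qa, h.rb, h.ra, fun x hx y hy => (h.c y hy x hx).symm, h.o, inf_comm A B ▸ h.m⟩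

theorem D.jm {A B : Subgroup G} {j : G} (h : D A B j) : j ∈ A ⊓ B := h.m.ge (mem_zpowers j)

theorem D.cm {A B : Subgroup G} {j : G} (h : D A B j) {a a' b b' : G} (ha : a ∈ A) (ha' : a' ∈ A) (hb : b ∈ B) (hb' : b' ∈ B)
    (e : a * b * (a' * b') = a' * b' * (a * b) ∨ a * b * (a' * b') = a' * b' * (a * b) * j) :
    a * a' = a' * a ∨ a * a' = a' * a * j := by
  have k1 : a * b * (a' * b') = a * a' * (b * b') := by rw [mul_assoc, ← mul_assoc b, ← h.c a' ha' b hb]; group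
  have k2 : a' * b' * (a * b) = a' * a * (b' * b) := by rw [mul_assoc, ← mul_assoc b', ← h.c a ha b' hb']; group
  rw [k1, k2] at e
  have : (a' * a)⁻¹ * (a * a') ∈ A ⊓ B := by
    refine ⟨A.mul_mem (A.inv_mem (A.mul_mem ha' ha)) (A.mul_mem ha ha'), ?_⟩
    rcases e with e | e
    · rw [show (a' * a)⁻¹ * (a * a') = b' * b * (b * b')⁻¹ by rw [eq_mul_inv_of_mul_eq e]; group]
      exact B.mul_mem (B.mul_mem hb' hb) (B.inv_mem (B.mul_mem hb hb'))
    · rw [show (a' * a)⁻¹ * (a * a') = b' * b * j * (b * b')⁻¹ by rw [eq_mul_inv_of_mul_eq e]; group]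
      exact B.mul_mem (B.mul_mem (B.mul_mem hb' hb) h.jm.2) (B.inv_mem (B.mul_mem hb hb'))
  rcases zp2 h.o (h.m.le this) with k | k
  · exact Or.inl (inv_mul_eq_one.1 k).symm
  · exact Or.inr (inv_mul_eq_iff_eq_mul.1 k)

/-- an element commuting with `B` modulo `j` lies in `A` -/
theorem D.mem {A B : Subgroup G} {j : G} (h : D A B j) {g : G} (hg : g ∈ A ⊔ B) (e : ∀ y ∈ B, g * y = y * g ∨ g * y = y * g * j) :
    g ∈ A := by
  obtain ⟨b, hb, a, ha, rfl⟩ := mem_sup' h.symm.c (sup_comm A B ▸ hg)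
  rcases h.rb.z2 b hb (fun y hy => h.symm.cm hb hy ha A.one_mem (by simpa using e y hy)) with k | k <;> rw [k]
  · rwa [one_mul]
  · exact A.mul_mem h.jm.1 ha

theorem D.jc {A B : Subgroup G} {j : G} (h : D A B j) {g : G} (hg : g ∈ A ⊔ B) : g * j = j * g := by
  obtain ⟨a, ha, b, hb, rfl⟩ := mem_sup' h.c hg
  rw [mul_assoc, ← h.c j h.jm.1 b hb, ← mul_assoc, h.c a ha j h.jm.2, mul_assoc]

theorem D.nm {A B : Subgroup G} {j : G} (h : D A B j) {g x : G} (hg : g ∈ A ⊔ B) (hx : x ∈ A) : g * x * g⁻¹ ∈ A := by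
  obtain ⟨a, ha, b, hb, rfl⟩ := mem_sup' h.c hg
  rw [show a * b * x * (a * b)⁻¹ = a * (b * x) * b⁻¹ * a⁻¹ by group, ← h.c x hx b hb,
    show a * (x * b) * b⁻¹ * a⁻¹ = a * x * a⁻¹ by group]
  exact A.mul_mem (A.mul_mem ha hx) (A.inv_mem ha)

theorem D.le {A B A' B' : Subgroup G} {j : G} (h : D A B j) (h' : D A' B' j) (e : A ⊔ B = A' ⊔ B') : A ≤ A' ∨ A ≤ B' := by
  have key : ∀ {A' B' : Subgroup G}, D A' B' j → A ⊔ B = A' ⊔ B' → ∀ a ∈ A', ∀ b ∈ B', a * b ∈ A → a ∈ A := by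
    intro A' B' h' e a ha b hb hab
    refine h.mem (e.ge (mem_sup_left ha)) fun y hy => ?_
    obtain ⟨c, hc, d, hd, rfl⟩ := mem_sup' h'.c (e.le (mem_sup_right hy))
    have cd : ∀ x ∈ A', x * (c * d) = x * c * d ∧ c * d * x = c * x * d := fun x hx =>
      ⟨(mul_assoc _ _ _).symm, by rw [mul_assoc, ← h'.c x hx d hd, mul_assoc]⟩
    rw [(cd a ha).1, (cd a ha).2]
    rcases h'.cm ha hc hb hd (Or.inl (h.c _ hab _ hy)) with k | k <;> rw [k]
    · exact Or.inl rfl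
    · right; rw [mul_assoc _ j, h'.c j h'.jm.1 d hd, ← mul_assoc]
  refine h.ra.ind A' B' h'.jm.1 h'.jm.2 (fun g hg x hx => h'.nm (e.le (mem_sup_left hg)) hx)
    (fun g hg x hx => h'.symm.nm (sup_comm A' B' ▸ e.le (mem_sup_left hg)) hx) h'.c fun g hg => ?_
  obtain ⟨a, ha, b, hb, rfl⟩ := mem_sup' h'.c (e.le (mem_sup_left hg))
  exact ⟨a, ⟨ha, key h' e a ha b hb hg⟩, b, ⟨hb, key h'.symm (e.trans (sup_comm _ _)) b hb a ha (h'.c a ha b hb ▸ hg)⟩, rfl⟩

theorem D.nle {A B : Subgroup G} {j : G} (h : D A B j) : ¬ A ≤ B := fun k => by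
  have hj2 : j * j = 1 := by rw [← pow_two, ← h.o, pow_orderOf_eq_one]
  have hj1 : j ≠ 1 := fun e => by have := h.o; rw [e, orderOf_one] at this; omega
  obtain ⟨a, ha, a2⟩ := h.qa.ex
  rcases zp2 h.o (h.m.le ⟨ha, k ha⟩) with k | k
  · rw [k, mul_one] at a2; exact hj1 a2.symm
  · rw [k, hj2] at a2; exact hj1 a2.symm

theorem D.uniq {A B A' B' : Subgroup G} {j : G} (h : D A B j) (h' : D A' B' j) (e : A ⊔ B = A' ⊔ B') :
    (A' = A ∧ B' = B) ∨ (A' = B ∧ B' = A) := by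
  have key : ∀ {A' B' : Subgroup G}, D A' B' j → A ⊔ B = A' ⊔ B' → A ≤ A' → A' = A ∧ B' = B := by
    intro A' B' h' e k
    have k2 : B ≤ B' := (h.symm.le h' ((sup_comm _ _).trans e)).resolve_left fun k2 =>
      h'.symm.nle (le_sup_right.trans (e.ge.trans (sup_le k k2)))
    exact ⟨le_antisymm (fun x hx => h.mem (e.ge (mem_sup_left hx)) fun y hy => Or.inl (h'.c x hx y (k2 hy))) k,
      le_antisymm (fun x hx => h.symm.mem (sup_comm A B ▸ e.ge (mem_sup_right hx)) fun y hy => Or.inl (h'.c y (k hy) x hx).symm) k2⟩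
  rcases h.le h' e with k | k
  · exact Or.inl (key h' e k)
  · exact Or.inr (key h'.symm (e.trans (sup_comm _ _)) k).symm

theorem d_of {F₁ : Type*} [Field F₁] [Fintype F₁] {F₂ : Type*} [Field F₂] [Fintype F₂]
    (hF₁ : Odd (Fintype.card F₁)) (hF₂ : Odd (Fintype.card F₂)) {A B : Subgroup G}
    (e₁ : A ≃* SpecialLinearGroup (Fin 2) F₁) (e₂ : B ≃* SpecialLinearGroup (Fin 2) F₂)
    (hc : ∀ x ∈ A, ∀ y ∈ B, x * y = y * x) {j : G} (hj : orderOf j = 2) (hm : A ⊓ B = zpowers j) : D A B j :=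
  have jm : j ∈ A ⊓ B := hm.ge (mem_zpowers j)
  ⟨q_of_equiv hF₁ e₁ hj jm.1, q_of_equiv hF₂ e₂ hj jm.2, r_of_equiv hF₁ e₁ hj jm.1, r_of_equiv hF₂ e₂ hj jm.2, hc, hj, hm⟩

theorem s3210 {F₁ : Type*} [Field F₁] [Fintype F₁] {F₂ : Type*} [Field F₂] [Fintype F₂]
    (hF₁ : Odd (Fintype.card F₁)) (hF₂ : Odd (Fintype.card F₂)) (A B : Subgroup G)
    (e₁ : A ≃* SpecialLinearGroup (Fin 2) F₁) (e₂ : B ≃* SpecialLinearGroup (Fin 2) F₂)
    (hc : ∀ x ∈ A, ∀ y ∈ B, x * y = y * x) (j : G) (hj : orderOf j = 2) (hm : A ⊓ B = zpowers j)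
    (hle : A ⊔ B ≤ centralizer ({j} : Set G)) (hi : (A ⊔ B).relIndex (centralizer ({j} : Set G)) = 2) (n : G)
    (hn : n ∈ centralizer ({j} : Set G)) (hn' : n ∉ A ⊔ B) :
    (A.map (MulAut.conj n).toMonoidHom = A ∧ B.map (MulAut.conj n).toMonoidHom = B) ∨
      (A.map (MulAut.conj n).toMonoidHom = B ∧ Fintype.card F₁ = Fintype.card F₂ ∧
        ∃ n' ∈ centralizer ({j} : Set G), n' ∉ A ⊔ B ∧ A.map (MulAut.conj n').toMonoidHom = B ∧ n' ^ 2 ∈ zpowers j) := by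
  have h := d_of hF₁ hF₂ e₁ e₂ hc hj hm
  have nj : n * j * n⁻¹ = j := by rw [mem_centralizer_singleton_iff.1 hn]; group
  have fi : Function.Injective (MulAut.conj n).toMonoidHom := (MulAut.conj n).injective
  have h' : D (A.map (MulAut.conj n).toMonoidHom) (B.map (MulAut.conj n).toMonoidHom) j :=
    d_of hF₁ hF₂ ((A.equivMapOfInjective _ fi).symm.trans e₁) ((B.equivMapOfInjective _ fi).symm.trans e₂)
      (by rintro _ ⟨x, hx, rfl⟩ _ ⟨y, hy, rfl⟩; rw [← map_mul, ← map_mul, hc x hx y hy]) hj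
      (by rw [← map_inf _ _ _ fi, hm, MonoidHom.map_zpowers]; exact congrArg _ nj)
  have nN := normal_of_index_eq_two hi
  have cj : ∀ g ∈ centralizer ({j} : Set G), ∀ x ∈ A ⊔ B, g * x * g⁻¹ ∈ A ⊔ B := fun g hg x hx =>
    mem_subgroupOf.1 (nN.conj_mem ⟨x, hle hx⟩ (mem_subgroupOf.2 hx) ⟨g, hg⟩)
  have e : A ⊔ B = A.map (MulAut.conj n).toMonoidHom ⊔ B.map (MulAut.conj n).toMonoidHom := by
    rw [← Subgroup.map_sup]
    refine le_antisymm (fun x hx => ⟨n⁻¹ * x * n⁻¹⁻¹, cj _ (inv_mem hn) x hx, by simp [mul_assoc]⟩) ?_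
    rintro _ ⟨x, hx, rfl⟩
    exact cj n hn x hx
  rcases h.uniq h' e with k | ⟨k1, k2⟩
  · exact Or.inl k
  refine Or.inr ⟨k1, ?_, ?_⟩
  · have c : Nat.card A = Nat.card B := by rw [← k1]; exact Nat.card_congr (A.equivMapOfInjective _ fi).toEquiv
    rw [Nat.card_congr e₁.toEquiv, Nat.card_congr e₂.toEquiv, H09.card_SL_two, H09.card_SL_two] at c
    have m : ∀ a b : ℕ, 1 < a → a < b → a * (a ^ 2 - 1) < b * (b ^ 2 - 1) := fun a b h1 h2 =>
      Nat.mul_lt_mul'' h2 (Nat.sub_lt_sub_right (Nat.one_le_pow _ _ (by omega)) (Nat.pow_lt_pow_left h2 two_ne_zero))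
    rcases lt_trichotomy (Fintype.card F₁) (Fintype.card F₂) with l | l | l
    · exact absurd c (m _ _ Fintype.one_lt_card l).ne
    · exact l
    · exact absurd c (m _ _ Fintype.one_lt_card l).ne'
  · have n2 : n * n ∈ A ⊔ B := mem_subgroupOf.1 (mul_self_mem_of_index_two hi ⟨n, hn⟩)
    obtain ⟨a, ha, b, hb, e2⟩ := mem_sup' hc n2
    have aB : n * a * n⁻¹ ∈ B := k1.le ⟨a, ha, rfl⟩
    have bA : n * b * n⁻¹ ∈ A := k2.le ⟨b, hb, rfl⟩
    have e3 : n * b * n⁻¹ * (n * a * n⁻¹) = a * b := by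
      rw [← e2, show n * b * n⁻¹ * (n * a * n⁻¹) = n * (b * a) * n⁻¹ by group, ← hc a ha b hb, ← e2]; group
    refine ⟨n * a⁻¹, mul_mem hn (hle (mem_sup_left (inv_mem ha))), fun k => hn' ?_, ?_, hm.le ⟨?_, ?_⟩⟩
    · simpa using mul_mem k (mem_sup_left ha)
    · rw [← k1]
      refine le_antisymm ?_ ?_
      · rintro _ ⟨x, hx, rfl⟩
        exact ⟨a⁻¹ * x * a, A.mul_mem (A.mul_mem (A.inv_mem ha) hx) ha, by simp [mul_assoc]⟩
      · rintro _ ⟨x, hx, rfl⟩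
        exact ⟨a * x * a⁻¹, A.mul_mem (A.mul_mem ha hx) (A.inv_mem ha), by simp [mul_assoc]⟩
    · rw [show (n * a⁻¹) ^ 2 = (n * a * n⁻¹)⁻¹ * (n * n) * a⁻¹ by rw [pow_two]; group, e2, ← e3, hc _ bA _ aB, inv_mul_cancel_left]
      exact A.mul_mem bA (A.inv_mem ha)
    · rw [show (n * a⁻¹) ^ 2 = (n * a * n⁻¹)⁻¹ * (n * n) * a⁻¹ by rw [pow_two]; group, e2, hc a ha b hb, mul_assoc,
        mul_inv_cancel_right]
      exact B.mul_mem (B.inv_mem aB) hb

end H08.CP
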