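import Mathlib
import Cfsg.Agent.H08.IsoElt
import Cfsg.Agent.H23.GW1

/-!
# A coprime automorphism centralizing an involution centralizer, I (namespace `H08.Ca`)

Counting tools (`part`, `cnt`), fixed point lemmas (`cv`, `f2`), the dihedral dichotomy (`ev`).
-/

set_option autoImplicit false
set_option linter.unusedSectionVars false
open Cfsg BG Subgroup H23 H23.GW

namespace H08.Ca
universe u
variable {G : Type u} [Group G] [Finite G] {L X : Subgroup G} {a b c g s t u v w x y z : G} {r : ℕ}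

theorem part {α : Type*} [Finite α] (R : Setoid α) (X Y : Set α) (c d : ℕ)
    (h : ∀ x ∈ X, c * {y ∈ X | R x y}.ncard ≤ d * {y ∈ Y | R x y}.ncard)
    (h' : ∃ x ∈ X, c * {y ∈ X | R x y}.ncard < d * {y ∈ Y | R x y}.ncard) : c * X.ncard < d * Y.ncard := by
  classical
  have := Fintype.ofFinite α
  have e : ∀ Z : Set α, Z.ncard = ∑ q : Quotient R, {y ∈ Z | Quotient.mk R y = q}.ncard := fun Z => by
    rw [Set.ncard_eq_toFinset_card', Finset.card_eq_sum_card_fiberwise (f := Quotient.mk R) (t := Finset.univ) (by simp)]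
    exact Finset.sum_congr rfl fun q _ => by rw [Set.ncard_eq_toFinset_card']; congr 1; ext; simp
  have f : ∀ (Z : Set α) x, {y ∈ Z | Quotient.mk R y = Quotient.mk R x} = {y ∈ Z | R x y} := fun Z x => by
    ext y; simp only [Set.mem_setOf_eq, Quotient.eq]; exact and_congr_right fun _ => ⟨R.symm, R.symm⟩
  rw [e X, e Y, Finset.mul_sum, Finset.mul_sum]
  obtain ⟨x, hx, h'⟩ := h'
  refine Finset.sum_lt_sum (fun q _ => ?_) ⟨_, Finset.mem_univ (Quotient.mk R x), by rwa [f, f]⟩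
  rcases {y ∈ X | Quotient.mk R y = q}.eq_empty_or_nonempty with k | ⟨y, hy, rfl⟩
  · simp [k]
  · rw [f, f]; exact h y hy

theorem fib {α β : Type*} [Finite α] [Finite β] (f : α → β) (X : Set α) (Y : Set β) (k : ℕ) (h : ∀ x ∈ X, f x ∈ Y)
    (h' : ∀ x ∈ X, {y ∈ X | f y = f x}.ncard ≤ k) : X.ncard ≤ k * Y.ncard := by
  classical
  have := Fintype.ofFinite α
  have := Fintype.ofFinite β
  rw [Set.ncard_eq_toFinset_card', Set.ncard_eq_toFinset_card']
  refine Finset.card_le_mul_card_image_of_maps_to (f := f) (by simpa using h) k fun b _ => ?_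
  rcases (X.toFinset.filter (f · = b)).eq_empty_or_nonempty with e | ⟨x, hx⟩
  · simp [e]
  · simp only [Finset.mem_filter, Set.mem_toFinset] at hx
    obtain ⟨hx, rfl⟩ := hx
    refine le_trans (le_of_eq ?_) (h' x hx)
    rw [Set.ncard_eq_toFinset_card']; congr 1; ext; simp

/-- the conjugates of `b` under `X` -/
def orb (X : Subgroup G) (b : G) : Set G := {c | ∃ x ∈ X, c = x * b * x⁻¹}

theorem orb_self : b ∈ orb X b := ⟨1, one_mem _, by simp⟩
theorem orb_conj (h : c ∈ orb X b) (hx : x ∈ X) : x * c * x⁻¹ ∈ orb X b := by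
  obtain ⟨y, hy, rfl⟩ := h
  exact ⟨x * y, mul_mem hx hy, by group⟩
theorem orb_eq (h : c ∈ orb X b) : orb X c = orb X b := by
  obtain ⟨y, hy, rfl⟩ := h
  exact Set.ext fun c => ⟨fun ⟨x, hx, e⟩ => e ▸ orb_conj ⟨y, hy, rfl⟩ hx, fun ⟨x, hx, e⟩ =>
    ⟨x * y⁻¹, mul_mem hx (inv_mem hy), by rw [e]; group⟩⟩

theorem cnt (X : Subgroup G) (b : G) (p : G → Prop) :
    {x ∈ (X : Set G) | p (x * b * x⁻¹)}.ncard = {c ∈ orb X b | p c}.ncard * Nat.card ↥(X ⊓ C_[b]) := by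
  classical
  have := Fintype.ofFinite G
  rw [Set.ncard_eq_toFinset_card', Set.ncard_eq_toFinset_card', Finset.card_eq_sum_card_fiberwise (f := fun x => x * b * x⁻¹)
    (t := {c ∈ orb X b | p c}.toFinset) (fun x hx => by
      simp only [Set.coe_toFinset, Set.mem_setOf_eq] at hx ⊢; exact ⟨⟨x, hx.1, rfl⟩, hx.2⟩), ← smul_eq_mul, ← Finset.sum_const]
  refine Finset.sum_congr rfl fun c hc => ?_
  obtain ⟨⟨y, hy, rfl⟩, hp⟩ := Set.mem_toFinset.1 hc
  rw [← Nat.card_eq_finsetCard]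
  refine Nat.card_congr ⟨fun x => ⟨y⁻¹ * x, ?_⟩, fun x => ⟨y * x, ?_⟩, fun x => by simp, fun x => by simp⟩
  · have := x.2
    simp only [Finset.mem_filter, Set.mem_toFinset, Set.mem_setOf_eq] at this
    exact mem_inf.2 ⟨mul_mem (inv_mem hy) this.1.1, mem_cent1.2 (by
      rw [mul_assoc, mul_inv_eq_iff_eq_mul.1 this.2]; group)⟩
  · have e : y * x * b * (y * x)⁻¹ = y * b * y⁻¹ := by rw [mul_assoc y, mem_cent1.1 (mem_inf.1 x.2).2]; group
    simp only [Finset.mem_filter, Set.mem_toFinset, Set.mem_setOf_eq, e, and_true]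
    exact ⟨mul_mem hy x.2.1, hp⟩

theorem cnt1 (X : Subgroup G) (b : G) : Nat.card X = (orb X b).ncard * Nat.card ↥(X ⊓ C_[b]) := by
  have := cnt X b fun _ => True
  simp only [Set.sep_true] at this
  exact this

theorem fixp (hr : r.Prime) (Y : Set G) (f : G → G) (hf : Function.Injective f) (h1 : ∀ y ∈ Y, f y ∈ Y) (h2 : ∀ y, f^[r] y = y)
    (h3 : ¬ r ∣ Y.ncard) : ∃ y ∈ Y, f y = y := by
  classical
  have := Fact.mk hr
  have := Fintype.ofFinite Y
  let F : Y → Y := fun y => ⟨f y, h1 y y.2⟩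
  obtain ⟨y, hy⟩ := Equiv.Perm.exists_fixed_point_of_prime (p := r) (n := 1) (α := Y) (by rwa [← Nat.card_eq_fintype_card])
    (σ := Equiv.ofBijective F (Finite.injective_iff_bijective.1 fun _ _ e => Subtype.ext (hf (congrArg Subtype.val e)))) (by
      ext y
      rw [pow_one, ← Equiv.Perm.iterate_eq_pow]
      exact ((Function.Semiconj.iterate_right (f := Subtype.val) (ga := F) (gb := f) (fun _ => rfl) r) y).trans (h2 y))
  exact ⟨y, y.2, congrArg Subtype.val hy⟩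

theorem cv (hr : r.Prime) (hX : ¬ r ∣ Nat.card X) (hb : b ∈ N_(X)) (b1 : b ^ r = 1) (c1 : c ^ r = 1) (h : c * b⁻¹ ∈ X) :
    c ∈ orb X b := by
  obtain ⟨y, hy, e⟩ := fixp hr (X : Set G) (fun x => c * x * b⁻¹) (fun _ _ e => by simpa using e)
    (fun y hy => by simpa [mul_assoc] using mul_mem h (conj_mem_of_norm hb hy)) (fun y => by
      have : ∀ n, (fun x => c * x * b⁻¹)^[n] y = c ^ n * y * (b ^ n)⁻¹ := fun n => by
        induction n with
        | zero => simp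
        | succ n ih => rw [Function.iterate_succ_apply', ih, pow_succ', pow_succ']; group
      rw [this, b1, c1]; simp) hX
  exact ⟨y, hy, by rw [eq_mul_inv_iff_mul_eq, ← mul_inv_eq_iff_eq_mul, e]⟩

theorem f2 (hX : ¬ 2 ∣ Nat.card X) (hs : s ∈ N_(X)) (s2 : s * s = 1) (h : s * b * s⁻¹ ∈ orb X b) :
    ∃ c ∈ orb X b, c ∈ C_[s] := by
  obtain ⟨y, hy, e⟩ := fixp Nat.prime_two (orb X b) (fun x => s * x * s⁻¹) (fun _ _ e => by simpa using e)
    (fun c ⟨y, hy, e⟩ => by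
      have := orb_conj h (conj_mem_of_norm hs hy)
      rw [e]; convert this using 1; group) (fun y => by
      show s * (s * y * s⁻¹) * s⁻¹ = y
      rw [show s * (s * y * s⁻¹) * s⁻¹ = s * s * y * (s * s)⁻¹ by group, s2]; simp)
    fun e => hX (cnt1 X b ▸ e.mul_right _)
  exact ⟨y, hy, mem_cent1.2 (mul_inv_eq_iff_eq_mul.1 e).symm⟩

theorem inv_zp (u2 : u * u = 1) (v2 : v * v = 1) (hx : x ∈ zpowers (u * v)) : u * x * u⁻¹ = x⁻¹ ∧ v * x * v⁻¹ = x⁻¹ := by
  obtain ⟨k, rfl⟩ := hx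
  simp only
  rw [← conj_zpow, ← conj_zpow, ← inv_zpow, mul_inv_rev, inv_eq_of_mul_eq_one_right u2, inv_eq_of_mul_eq_one_right v2]
  constructor <;> congr 1
  · rw [← mul_assoc, u2, one_mul]
  · rw [mul_assoc, mul_assoc, v2, mul_one]

theorem zc (u2 : u * u = 1) (v2 : v * v = 1) (hz : z ∈ zpowers (u * v)) (z2 : orderOf z = 2) : u ∈ C_[z] ∧ v ∈ C_[z] := by
  have := inv_zp u2 v2 hz
  rw [inv2 z2] at this
  exact ⟨mem_cent1.2 (mul_inv_eq_iff_eq_mul.1 this.1), mem_cent1.2 (mul_inv_eq_iff_eq_mul.1 this.2)⟩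

theorem ev (u2 : u * u = 1) (v2 : v * v = 1) : (∃ z ∈ zpowers (u * v), orderOf z = 2) ∨
    ∃ x ∈ zpowers (u * v), v = x * u * x⁻¹ ∧ Odd (orderOf (u * v)) := by
  by_cases h : 2 ∣ Nat.card (zpowers (u * v))
  · exact Or.inl (exists_orderOf_eq_prime Nat.prime_two h)
  obtain ⟨x, hx, e⟩ := cv Nat.prime_two h (b := u) (c := v) (mem_norm_of_cj_le fun x hx => by
    obtain ⟨y, hy, rfl⟩ := mem_cj'.1 hx
    exact (inv_zp u2 v2 hy).1 ▸ inv_mem hy) ((sq u).trans u2) ((sq v).trans v2) (by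
      simpa [inv_eq_of_mul_eq_one_right v2] using inv_mem (mem_zpowers (u * v)))
  exact Or.inr ⟨x, hx, e, Nat.odd_iff.2 (Nat.two_dvd_ne_zero.1 (card_zpowers (u * v) ▸ h))⟩

theorem zu (hz : z ∈ zpowers w) (z2 : orderOf z = 2) (hy : y ∈ zpowers w) (y2 : orderOf y = 2) : y = z := by
  have := eq_of_card_eq_of_cyclic (cyclic_zpowers w) (zpowers_le.2 hz) (zpowers_le.2 hy) (by rw [card_zp2 z2, card_zp2 y2])
  exact ((mem_zp2 z2).1 (this ▸ mem_zpowers y)).resolve_left (ne1 y2)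

theorem zm (hX : ¬ 2 ∣ Nat.card X) (hw : w ∈ N_(X)) (hx : x ∈ X) (hz : z ∈ zpowers w) (z2 : orderOf z = 2) (h : X ≤ C_[z]) :
    z ∈ zpowers (x * w) := by
  obtain ⟨k, rfl⟩ := mem_powers_iff_mem_zpowers.2 hz
  have : ∀ n : ℕ, (x * w) ^ n * (w ^ n)⁻¹ ∈ X := fun n => by
    induction n with
    | zero => simp
    | succ n ih => simpa [pow_succ', mul_assoc] using mul_mem hx (conj_mem_of_norm hw ih)
  obtain ⟨o, ho, e⟩ : ∃ o ∈ X, (x * w) ^ k = o * w ^ k := ⟨_, this k, by simp⟩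
  obtain ⟨m, hm⟩ := Nat.odd_iff.2 (Nat.two_dvd_ne_zero.1 (odd_of_mem hX ho))
  have := pow_mem (pow_mem (mem_zpowers (x * w)) k) (orderOf o)
  rwa [e, Commute.mul_pow (mem_cent1.1 (h ho)), pow_orderOf_eq_one, one_mul, hm, pow_succ, pow_mul, sq, sq1 z2, one_pow,
    one_mul] at this

end H08.Ca
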