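import Mathlib
import Cfsg.Agent.H08.Ca1

/-!
# A coprime automorphism centralizing an involution centralizer, II (namespace `H08.Ca`)

`Mn.kl`: an order formula on the conjugates of `a`; `Mn.false`: there is no minimal counterexample.
-/

set_option autoImplicit false
set_option linter.unusedSectionVars false
open Cfsg BG Subgroup H23 H23.GW

namespace H08.Ca
universe u
variable {G : Type u} [Group G] [Finite G] {L X : Subgroup G} {a b c g s t u v w x y z : G} {r : ℕ}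

theorem om (hb : b ∈ N_(X)) (h1 : c ∈ orb X b) (h2 : w ∈ orb X b) : c * w⁻¹ ∈ X := by
  obtain ⟨x, hx, rfl⟩ := h1
  obtain ⟨y, hy, rfl⟩ := h2
  simpa [mul_assoc] using mul_mem (mul_mem hx (conj_mem_of_norm hb (mul_mem (inv_mem hx) hy))) (inv_mem hy)
theorem orb_mono (h : X ≤ L) (hc : c ∈ orb X b) : c ∈ orb L b := hc.imp fun _ e => ⟨h e.1, e.2⟩
theorem norm_inf' (h1 : x ∈ N_(L)) (h2 : x ∈ N_(X)) : x ∈ N_(L ⊓ X) :=
  norm_inf (zp_le_norm h1) (zp_le_norm h2) (mem_zpowers x)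
theorem cc1 (h : b ∈ C_[z]) : b ∈ N_(C_[z]) := le_norm _ h

structure Hy (r : ℕ) (L : Subgroup G) (a t : G) : Prop where
  hr : r.Prime
  cop : ¬ r ∣ Nat.card L
  a1 : a ^ r = 1
  aN : a ∈ N_(L)
  tL : t ∈ L
  t2 : orderOf t = 2
  le : L ⊓ C_[t] ≤ C_[a]

/-- the odd core of the centralizer -/
abbrev oz (L : Subgroup G) (z : G) : Subgroup G := piCoreOf {2}ᶜ (L ⊓ C_[z])
/-- the fixed points -/
def fx (L : Subgroup G) (a x : G) : Set G := {b ∈ orb L a | b ∈ C_[x]}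

namespace Hy
variable (h : Hy r L a t)
include h
theorem conj (hg : g ∈ L) : Hy r L (g * a * g⁻¹) (g * t * g⁻¹) :=
  ⟨h.hr, h.cop, by rw [conj_pow, h.a1]; simp, mul_mem (mul_mem (le_norm L hg) h.aN) (inv_mem (le_norm L hg)),
    mul_mem (mul_mem hg h.tL) (inv_mem hg), (BG.orderOf_conj _ _).trans h.t2, by
      rw [← cj_cent1, ← cj_cent1, ← cj_of_mem_norm (le_norm L hg), ← cj_inf]; exact cj_mono g h.le⟩
theorem o1 (hb : b ∈ orb L a) : b ^ r = 1 := by obtain ⟨g, hg, rfl⟩ := hb; exact (h.conj hg).a1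
theorem oN (hb : b ∈ orb L a) : b ∈ N_(L) := by obtain ⟨g, hg, rfl⟩ := hb; exact (h.conj hg).aN
theorem cz (hz : z ∈ L) (e : t ∈ C_[z]) : a ∈ C_[z] := mem_cent1_comm.1 (h.le ⟨hz, mem_cent1_comm.1 e⟩)
theorem ta : a ∈ C_[t] := h.cz h.tL (mem_cent1.2 rfl)
theorem sub (hz : z ∈ L) (e : t ∈ C_[z]) : Hy r (L ⊓ C_[z]) a t :=
  ⟨h.hr, fun k => h.cop (k.trans (card_dvd_of_le inf_le_left)), h.a1, norm_inf' h.aN (cc1 (h.cz hz e)), ⟨h.tL, e⟩, h.t2,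
    (inf_le_inf_right _ inf_le_left).trans h.le⟩
theorem tr (hb : b ∈ fx L a x) (hc : c ∈ fx L a x) : c ∈ orb (L ⊓ C_[x]) b :=
  cv h.hr (fun k => h.cop (k.trans (card_dvd_of_le inf_le_left))) (norm_inf' (h.oN hb.1) (cc1 hb.2)) (h.o1 hb.1) (h.o1 hc.1)
    (mem_inf.2 ⟨om h.aN hc.1 hb.1, mul_mem hc.2 (inv_mem hb.2)⟩)
theorem fx_eq (hb : b ∈ fx L a x) : orb (L ⊓ C_[x]) b = fx L a x := Set.ext fun _ => ⟨fun ⟨y, hy, e⟩ =>
  e ▸ ⟨orb_conj hb.1 hy.1, mul_mem (mul_mem (mem_inf.1 hy).2 hb.2) (inv_mem (mem_inf.1 hy).2)⟩, h.tr hb⟩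
theorem uq (hb : b ∈ orb L a) (e : b ∈ C_[t]) : b = a := by
  obtain ⟨x, hx, rfl⟩ := h.tr ⟨orb_self, h.ta⟩ ⟨hb, e⟩
  exact mul_inv_eq_iff_eq_mul.2 (mem_cent1.1 (h.le hx))
theorem pt (hu : u ∈ orb L t) : ∃ b ∈ orb L a, Hy r L b u := by
  obtain ⟨g, hg, rfl⟩ := hu; exact ⟨_, ⟨g, hg, rfl⟩, h.conj hg⟩
theorem us (hu : u ∈ orb L t) : (fx L a u).Subsingleton := by
  obtain ⟨b, hb, k⟩ := h.pt hu
  exact fun c hc d hd => (k.uq (orb_eq hb ▸ hc.1) hc.2).trans (k.uq (orb_eq hb ▸ hd.1) hd.2).symm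
end Hy

structure Mn (r : ℕ) (L : Subgroup G) (a t : G) : Prop extends Hy r L a t where
  ih : ∀ z ∈ L, orderOf z = 2 → ∀ b u, Hy r L b u → u ∈ C_[z] → ∀ g ∈ L ⊓ C_[z], g * b * g⁻¹ * b⁻¹ ∈ oz L z
  n1 : ∀ x ∈ L, (∀ b ∈ orb L a, b ∈ C_[x]) → x = 1

theorem oL : oz L z ≤ L := (pcore_le _ _).trans inf_le_left
theorem oC : oz L z ≤ C_[z] := (pcore_le _ _).trans inf_le_right
theorem oo : ¬ 2 ∣ Nat.card (oz L z) := pcore_not_dvd Nat.prime_two _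
theorem on (h1 : x ∈ N_(L)) (h2 : x ∈ C_[z]) : x ∈ N_(oz L z) := norm_le_norm_pcore _ _ (norm_inf' h1 (cc1 h2))

namespace Mn
variable (h : Mn r L a t)
include h
theorem lt (hx : x ∈ L) (x1 : x ≠ 1) : (fx L a x).ncard < (orb L a).ncard :=
  Set.ncard_lt_ncard ⟨fun _ e => e.1, fun e => x1 (h.n1 x hx fun b hb => (e hb).2)⟩
variable (zL : z ∈ L) (z2 : orderOf z = 2) (hu : u ∈ orb L t) (uz : u ∈ C_[z])
include zL z2 hu uz
theorem mo (hb : b ∈ fx L a z) (hc : c ∈ fx L a z) : c * b⁻¹ ∈ oz L z := by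
  obtain ⟨d, hd, k⟩ := h.pt hu
  have := k.cz zL uz
  obtain ⟨x, hx, rfl⟩ := h.tr ⟨hd, this⟩ hb
  obtain ⟨y, hy, rfl⟩ := h.tr ⟨hd, this⟩ hc
  simpa [mul_assoc] using mul_mem (h.ih z zL z2 d u k uz y hy) (inv_mem (h.ih z zL z2 d u k uz x hx))
theorem fo (hb : b ∈ fx L a z) : orb (oz L z) b = fx L a z := Set.ext fun _ => ⟨fun e => h.fx_eq hb ▸ orb_mono (pcore_le _ _) e,
  fun e => cv h.hr (fun k => h.cop (k.trans (card_dvd_of_le oL))) (on (h.oN hb.1) hb.2) (h.o1 hb.1) (h.o1 e.1) (h.mo zL z2 hu uz hb e)⟩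
variable (sL : s ∈ L) (s2 : s * s = 1) (sz : s ∈ C_[z])
include sL s2 sz
theorem ex (hb : b ∈ fx L a z) : ∃ c ∈ fx L a s, c ∈ C_[z] ∧ L ⊓ C_[s] ⊓ C_[b] ≤ C_[c] := by
  have h1 : s ∈ C_(L ⊓ C_[s] ⊓ C_[b]) := le_cent1_iff.1 (inf_le_left.trans inf_le_right)
  have h2 : b ∈ C_(L ⊓ C_[s] ⊓ C_[b]) := le_cent1_iff.1 inf_le_right
  have h3 : s * b * s⁻¹ ∈ fx L a z := ⟨orb_conj hb.1 sL, mul_mem (mul_mem sz hb.2) (inv_mem sz)⟩
  obtain ⟨c, ⟨x, hx, rfl⟩, hc⟩ := f2 (X := oz L z ⊓ C_(L ⊓ C_[s] ⊓ C_[b])) (fun k => oo (k.trans (card_dvd_of_le inf_le_left)))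
    (norm_inf' (on (le_norm L sL) sz) (le_norm _ h1)) s2 (cv h.hr (fun k => h.cop (k.trans (card_dvd_of_le (inf_le_left.trans oL))))
      (norm_inf' (on (h.oN hb.1) hb.2) (le_norm _ h2)) (h.o1 hb.1) (h.o1 h3.1)
      (mem_inf.2 ⟨h.mo zL z2 hu uz hb h3, mul_mem (mul_mem (mul_mem h1 h2) (inv_mem h1)) (inv_mem h2)⟩))
  exact ⟨_, ⟨orb_conj hb.1 (oL hx.1), hc⟩, mul_mem (mul_mem (oC hx.1) hb.2) (inv_mem (oC hx.1)),
    le_cent1_iff.2 (mul_mem (mul_mem (mem_inf.1 hx).2 h2) (inv_mem (mem_inf.1 hx).2))⟩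
theorem ineq : (fx L a s).ncard * (fx L a z).ncard ≤ (orb L a).ncard * {c ∈ fx L a z | c ∈ C_[s]}.ncard := by
  obtain ⟨d, hd, k⟩ := h.pt hu
  obtain ⟨c0, hc0, -⟩ := h.ex zL z2 hu uz sL s2 sz ⟨hd, k.cz zL uz⟩
  have e : ∀ c ∈ fx L a s, Nat.card ↥(L ⊓ C_[s]) = (fx L a s).ncard * Nat.card ↥(L ⊓ C_[s] ⊓ C_[c]) := fun c hc => by
    rw [← h.fx_eq hc]; exact cnt1 _ _
  have p : 0 < (fx L a s).ncard := (Set.ncard_pos).2 ⟨_, hc0⟩
  have := fib (fun x : G × G => x.1 * x.2 * x.1⁻¹) (((L ⊓ C_[s] : Subgroup G) : Set G) ×ˢ fx L a z) (orb L a)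
    ({c ∈ fx L a z | c ∈ C_[s]}.ncard * Nat.card ↥(L ⊓ C_[s] ⊓ C_[c0])) (fun x hx => orb_conj hx.2.1 hx.1.1) fun x hx => by
      obtain ⟨c, hc, cz, l⟩ := h.ex zL z2 hu uz sL s2 sz hx.2
      have := cnt (L ⊓ C_[s]) c (· ∈ C_[z])
      rw [h.fx_eq hc, Nat.eq_of_mul_eq_mul_left p ((e c hc).symm.trans (e c0 hc0)),
        show {c ∈ fx L a s | c ∈ C_[z]} = {c ∈ fx L a z | c ∈ C_[s]} from Set.ext fun _ => and_right_comm] at this
      rw [← this]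
      refine Set.ncard_le_ncard_of_injOn (fun y => y.1⁻¹ * x.1) (fun y ⟨hy, ey⟩ => ?_) fun y hy y' hy' ey => ?_
      · have m := mul_mem (inv_mem hy.1) hx.1
        have zA : z ∈ L ⊓ C_[s] := ⟨zL, mem_cent1_comm.1 sz⟩
        have e1 : y.2 = y.1⁻¹ * x.1 * x.2 * (y.1⁻¹ * x.1)⁻¹ := by
          rw [show y.1⁻¹ * x.1 * x.2 * (y.1⁻¹ * x.1)⁻¹ = y.1⁻¹ * (x.1 * x.2 * x.1⁻¹) * y.1 by group, ← ey]; group
        have e2 := mem_cent1_comm.1 hy.2.2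
        rw [e1, ← cj_cent1, mem_cj] at e2
        refine ⟨m, mem_cent1_comm.1 ?_⟩
        rw [← cj_cent1, mem_cj]
        exact (Subgroup.mul_mem_cancel_right _ (inv_mem (mem_cent1_comm.1 cz))).1 (l (mem_inf.2
          ⟨mul_mem (mul_mem (mul_mem (inv_mem m) zA) m) (inv_mem zA), mul_mem e2 (inv_mem (mem_cent1_comm.1 hx.2.2))⟩))
      · have e1 : y.1 = y'.1 := by simpa using ey
        have e2 := hy.2.trans hy'.2.symm
        exact Prod.ext e1 (by simpa [e1] using e2)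
  rw [Set.ncard_prod, show ((L ⊓ C_[s] : Subgroup G) : Set G).ncard = _ from e c0 hc0] at this
  exact Nat.le_of_mul_le_mul_right (by nlinarith) (card_pos (L ⊓ C_[s] ⊓ C_[c0]))
end Mn

namespace Mn
variable (h : Mn r L a t)
include h
theorem ez (sL : s ∈ L) (s2 : s * s = 1) (ns : s ∉ orb L t) (hu : u ∈ orb L t) : ∃ z ∈ zpowers (s * u), orderOf z = 2 := by
  obtain ⟨b, -, k⟩ := h.pt hu
  refine (ev s2 (sq1 k.t2)).resolve_right fun ⟨x, hx, e, _⟩ => ns ?_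
  have := orb_conj hu (inv_mem (zpowers_le.2 (mul_mem sL k.tL) hx))
  rwa [e, show x⁻¹ * (x * s * x⁻¹) * x⁻¹⁻¹ = s by group] at this

theorem kl (sL : s ∈ L) (s2 : s * s = 1) (ns : s ∉ orb L t) (hu : u ∈ orb L t) (hz : z ∈ zpowers (s * u)) (z2 : orderOf z = 2) :
    ¬ (fx L a s).ncard * (fx L a z).ncard < (orb L a).ncard * {c ∈ fx L a z | c ∈ C_[s]}.ncard := fun lt => by
  classical
  have : ∀ g, ∃ z, g ∈ L → z ∈ zpowers (s * (g * t * g⁻¹)) ∧ orderOf z = 2 := fun g => by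
    by_cases e : g ∈ L
    exacts [(h.ez sL s2 ns ⟨g, e, rfl⟩).imp fun _ k _ => k, ⟨1, fun k => absurd k e⟩]
  choose f hf using this
  have key : ∀ g ∈ L, ∃ k, 0 < k ∧
      {y ∈ (L : Set G) | Setoid.ker (fun g => (· * g) '' (oz L (f g))) g y}.ncard = (fx L a (f g)).ncard * k ∧
      {y ∈ {x ∈ (L : Set G) | x * a * x⁻¹ ∈ C_[s]} | Setoid.ker (fun g => (· * g) '' (oz L (f g))) g y}.ncard =
        {c ∈ fx L a (f g) | c ∈ C_[s]}.ncard * k ∧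
      (fx L a s).ncard * (fx L a (f g)).ncard ≤ (orb L a).ncard * {c ∈ fx L a (f g) | c ∈ C_[s]}.ncard := fun g hg => by
    have k := h.conj hg
    obtain ⟨h1, h2⟩ := hf g hg
    have zL := zpowers_le.2 (mul_mem sL k.tL) h1
    obtain ⟨sz, uz⟩ := zc s2 (sq1 k.t2) h1 h2
    have e : ∀ y, y ∈ L ∧ Setoid.ker (fun g => (· * g) '' (oz L (f g))) g y ↔ y * g⁻¹ ∈ oz L (f g) := fun y => by
      refine ⟨fun ⟨_, e⟩ => ?_, fun e => ?_⟩
      · obtain ⟨o, ho, e'⟩ : y ∈ (· * g) '' (oz L (f g)) := (Setoid.ker_def.1 e).symm ▸ ⟨1, one_mem _, one_mul y⟩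
        simpa [← e'] using ho
      obtain ⟨o, rfl⟩ : ∃ o, y = o * g := ⟨y * g⁻¹, by simp⟩
      rw [mul_inv_cancel_right] at e
      have yL := mul_mem (oL e) hg
      have n := on (le_norm L (mul_mem sL k.tL)) (mul_mem sz uz)
      have : f (o * g) = f g := zu (by
        have := zm oo n (mul_mem (conj_mem_of_norm (on (le_norm L sL) sz) e) (conj_mem_of_norm n (inv_mem e))) h1 h2 oC
        convert this using 2; group) h2 (hf _ yL).1 (hf _ yL).2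
      refine ⟨yL, Setoid.ker_def.2 (Set.ext fun x => ?_)⟩
      rw [this]
      exact ⟨fun ⟨p, hp, ep⟩ => ⟨p * o⁻¹, mul_mem hp (inv_mem e), by simp [← ep, mul_assoc]⟩,
        fun ⟨p, hp, ep⟩ => ⟨p * o, mul_mem hp e, by simp [← ep, mul_assoc]⟩⟩
    have hb : g * a * g⁻¹ ∈ fx L a (f g) := ⟨⟨g, hg, rfl⟩, k.cz zL uz⟩
    refine ⟨_, card_pos (oz L (f g) ⊓ C_[g * a * g⁻¹]), ?_, ?_, h.ineq zL h2 ⟨g, hg, rfl⟩ uz sL s2 sz⟩
    · rw [← h.fo zL h2 ⟨g, hg, rfl⟩ uz hb, ← cnt1]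
      exact Set.ncard_congr (fun y _ => y * g⁻¹) (fun y hy => (e y).1 hy) (fun _ _ _ _ e => by simpa using e)
        fun y hy => ⟨y * g, (e _).2 (by simpa using hy), by simp⟩
    · rw [← h.fo zL h2 ⟨g, hg, rfl⟩ uz hb, ← cnt _ _ (· ∈ C_[s])]
      exact Set.ncard_congr (fun y _ => y * g⁻¹) (fun y hy => ⟨(e y).1 ⟨hy.1.1, hy.2⟩, by simpa [mul_assoc] using hy.1.2⟩)
        (fun _ _ _ _ e => by simpa using e) fun y hy => ⟨y * g, by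
          have := (e (y * g)).2 (by simpa using hy.1)
          exact ⟨⟨this.1, by simpa [mul_assoc] using hy.2⟩, this.2⟩, by simp⟩
  have := part (Setoid.ker fun g => (· * g) '' (oz L (f g))) L {x ∈ (L : Set G) | x * a * x⁻¹ ∈ C_[s]} (fx L a s).ncard
    (orb L a).ncard (fun g hg => by
      obtain ⟨k, -, e1, e2, e3⟩ := key g hg
      rw [e1, e2, ← mul_assoc, ← mul_assoc]; exact Nat.mul_le_mul_right k e3) (by
      obtain ⟨g, hg, rfl⟩ := hu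
      obtain ⟨k, p, e1, e2, -⟩ := key g hg
      refine ⟨g, hg, ?_⟩
      rw [e1, e2, ← mul_assoc, ← mul_assoc, zu hz z2 (hf g hg).1 (hf g hg).2]; exact Nat.mul_lt_mul_of_pos_right lt p)
  rw [cnt L a (· ∈ C_[s]), show (L : Set G).ncard = _ from cnt1 L a] at this
  exact this.ne (by rw [fx]; ring)

theorem nu (sL : s ∈ L) (s2 : orderOf s = 2) (ns : s ∉ orb L t) (hu : u ∈ orb L t) (hz : z ∈ zpowers (s * u)) (z2 : orderOf z = 2) :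
    ¬ (fx L a s).Subsingleton ∧ ¬ (fx L a z).Subsingleton := by
  have := h.kl sL (sq1 s2) ns hu hz z2
  obtain ⟨b, hb, k⟩ := h.pt hu
  have zL := zpowers_le.2 (mul_mem sL k.tL) hz
  obtain ⟨sz, uz⟩ := zc (sq1 s2) (sq1 k.t2) hz z2
  obtain ⟨c, hc, cz, -⟩ := h.ex zL z2 hu uz sL (sq1 s2) sz ⟨hb, k.cz zL uz⟩
  have p : 0 < {c ∈ fx L a z | c ∈ C_[s]}.ncard := (Set.ncard_pos).2 ⟨c, ⟨hc.1, cz⟩, hc.2⟩
  have l1 := h.lt sL (ne1 s2)
  have l2 := h.lt zL (ne1 z2)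
  constructor <;> intro e <;> have := (Set.ncard_le_one_iff_subsingleton).2 e <;> nlinarith

theorem clo (hu : u ∈ orb L t) (hv : v ∈ orb L t) (F : Four u v) : u * v ∈ orb L t := by_contra fun e => by
  obtain ⟨b, -, k⟩ := h.pt hu
  obtain ⟨c, -, l⟩ := h.pt hv
  exact (h.nu (mul_mem k.tL l.tL) F.hm e hv (by rw [mul_assoc, sq1 F.hv, mul_one]; exact mem_zpowers u) F.ht).2 (h.us hu)

theorem pure (hu : u ∈ orb L t) (hv : v ∈ orb L t) (F : Four u v) (zL : z ∈ L) (z2 : orderOf z = 2) (uz : u ∈ C_[z])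
    (vz : v ∈ C_[z]) : (fx L a z).Subsingleton := by
  obtain ⟨b, hb, k⟩ := h.pt hu
  have e : ∀ w ∈ orb L t, w ∈ C_[u] → oz L z ⊓ C_[w] ≤ C_[b] := fun w hw e => by
    obtain ⟨c, hc, l⟩ := h.pt hw
    rw [l.uq (orb_eq hc ▸ hb) (k.cz l.tL (mem_cent1_comm.1 e))]
    exact (inf_le_inf_right _ oL).trans l.le
  obtain ⟨c, -, l⟩ := h.pt hv
  have := F.gen oo (on (le_norm L k.tL) uz) (on (le_norm L l.tL) vz) (e u hu (mem_cent1.2 rfl)) (e v hv F.vC)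
    (e _ (h.clo hu hv F) (mul_mem (mem_cent1.2 rfl) F.vC))
  rw [← h.fo zL z2 hu uz ⟨hb, k.cz zL uz⟩]
  rintro _ ⟨x, hx, rfl⟩ _ ⟨y, hy, rfl⟩
  rw [mem_cent1.1 (this hx), mem_cent1.1 (this hy), mul_inv_cancel_right, mul_inv_cancel_right]

theorem all (hv : v ∈ orb L t) (F : Four t v) (sL : s ∈ L) (s2 : orderOf s = 2) : s ∈ orb L t := by_contra fun ns => by
  obtain ⟨c, -, l⟩ := h.pt hv
  obtain ⟨S, hS, le⟩ := sylow_superset Nat.prime_two F.pg (F.le.2 ⟨h.tL, l.tL⟩)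
  obtain ⟨g, hg, e⟩ := sylow_Jsub Nat.prime_two hS (pg_zp2 s2) (zpowers_le.2 sL)
  have sS := e (conj_mem_cj g (mem_zpowers s))
  have ns' : g * s * g⁻¹ ∉ orb L t := fun k => ns (by simpa [mul_assoc] using orb_conj k (inv_mem hg))
  have s2' := (BG.orderOf_conj g s).trans s2
  generalize g * s * g⁻¹ = s at *
  obtain ⟨z, zS, z2, zc'⟩ := exists_invol_cent (hS.pg Nat.prime_two) (le_norm S) ((show 2 ∣ 4 by decide).trans (F.card ▸ card_dvd_of_le le))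
  replace zc' := le_cent1_iff.2 zc'
  have hz : z ∈ orb L t := by_contra fun k => by
    obtain ⟨w, hw, w2⟩ := h.ez (hS.le zS) (sq1 z2) k orb_self
    exact (h.nu (hS.le zS) z2 k orb_self hw w2).1 (h.pure orb_self hv F (hS.le zS) z2 (zc' (le F.t_mem)) (zc' (le F.v_mem)))
  obtain ⟨u, hu, uS, u2, ne⟩ : ∃ u ∈ orb L t, u ∈ S ∧ orderOf u = 2 ∧ u ≠ z := by
    by_cases k : t = z
    exacts [⟨v, hv, le F.v_mem, F.hv, k ▸ F.ne⟩, ⟨t, orb_self, le F.t_mem, F.ht, k⟩]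
  obtain ⟨w, hw, w2⟩ := h.ez (hS.le sS) (sq1 s2') ns' hu
  have wS := zpowers_le.2 (mul_mem sS uS) hw
  exact (h.nu (hS.le sS) s2' ns' hu hw w2).2 (h.pure hu hz ⟨u2, z2, ne.symm, mem_cent1.1 (zc' uS)⟩ (hS.le wS) w2
    (zc (sq1 s2') (sq1 u2) hw w2).2 (mem_cent1_comm.1 (zc' wS)))

theorem false (hv : v ∈ orb L t) (F : Four t v) : False := by
  have us : ∀ s ∈ L, orderOf s = 2 → ∀ b ∈ orb L a, ∀ c ∈ orb L a, b ∈ C_[s] → c ∈ C_[s] → b = c := fun s sL s2 b hb c hc e1 e2 =>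
    h.us (h.all hv F sL s2) ⟨hb, e1⟩ ⟨hc, e2⟩
  have ev' : ∀ u ∈ L, ∀ w ∈ L, orderOf u = 2 → orderOf w = 2 → ∀ b ∈ orb L a, ∀ c ∈ orb L a, b ∈ C_[u] → c ∈ C_[w] → b = c ∨
      ∃ x ∈ zpowers (u * w), w = x * u * x⁻¹ ∧ Odd (orderOf (u * w)) := fun u uL w wL u2 w2 b hb c hc e1 e2 =>
    (ev (sq1 u2) (sq1 w2)).imp_left fun ⟨z, hz, z2⟩ => by
      have zL := zpowers_le.2 (mul_mem uL wL) hz
      obtain ⟨b', hb', k⟩ := h.pt (h.all hv F uL u2)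
      obtain ⟨c', hc', l⟩ := h.pt (h.all hv F wL w2)
      rw [k.uq (orb_eq hb' ▸ hb) e1, l.uq (orb_eq hc' ▸ hc) e2]
      exact us z zL z2 _ hb' _ hc' (k.cz zL (zc (sq1 u2) (sq1 w2) hz z2).1) (l.cz zL (zc (sq1 u2) (sq1 w2) hz z2).2)
  obtain ⟨b, hb, bt⟩ : ∃ b ∈ orb L a, b ∉ C_[t] := by_contra fun e => ne1 h.t2 (h.n1 t h.tL (by simpa using e))
  have hc := orb_conj hb h.tL
  have ne : b ≠ t * b * t⁻¹ := fun e => bt (mem_cent1.2 (eq_mul_inv_iff_mul_eq.1 e))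
  have sub : {w | w ∈ L ∧ orderOf w = 2 ∧ w * b * w⁻¹ = t * b * t⁻¹} ⊆ {w | w ∈ L ∧ orderOf w = 2 ∧ a ∈ C_[w]} := by
    rintro w ⟨wL, w2, e⟩
    refine ⟨wL, w2, mem_cent1_comm.1 ((Subgroup.mul_mem_cancel_left _ (mem_cent1_comm.1 h.ta)).1 (mem_cent1_comm.1 ?_))⟩
    have yL := mul_mem h.tL wL
    have y1 : b ∈ C_[t * w] := mem_cent1.2 (mul_inv_eq_iff_eq_mul.1 (by
      rw [show t * w * b * (t * w)⁻¹ = t * (w * b * w⁻¹) * t⁻¹ by group, e,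
        show t * (t * b * t⁻¹) * t⁻¹ = t * t * b * (t * t)⁻¹ by group, sq1 h.t2]; simp)).symm
    have iv := (inv_zp (sq1 h.t2) (sq1 w2) (mem_zpowers _)).1
    have y2 : t * b * t⁻¹ ∈ C_[t * w] := by
      have := conj_mem_cj t y1
      rw [cj_cent1, iv] at this
      exact mem_cent1_comm.1 (inv_mem_iff.1 (mem_cent1_comm.1 this))
    generalize t * w = y at *
    by_cases o : 2 ∣ Nat.card ↥(L ⊓ C_[y])
    · obtain ⟨u, hu, u2⟩ := exists_orderOf_eq_prime Nat.prime_two o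
      obtain ⟨c, hc', k⟩ := h.pt (h.all hv F hu.1 u2)
      rcases ev' u hu.1 t h.tL u2 h.t2 c hc' a orb_self k.ta h.ta with rfl | ⟨-, -, -, m, hm⟩
      · exact k.cz yL (mem_inf.1 hu).2
      by_cases y0 : y = 1
      · exact mem_cent1.2 (by simp [y0])
      have i1 : u * t * y * (u * t)⁻¹ = y⁻¹ := by
        rw [show u * t * y * (u * t)⁻¹ = u * (t * y * t⁻¹) * u⁻¹ by group, iv, ← conj_inv, mem_cent1.1 (mem_inf.1 hu).2]; simp
      have i2 : (u * t) ^ 2 ∈ C_[y] := mem_cent1.2 (mul_inv_eq_iff_eq_mul.1 (by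
        rw [sq, show u * t * (u * t) * y * (u * t * (u * t))⁻¹ = u * t * (u * t * y * (u * t)⁻¹) * (u * t)⁻¹ by group, i1,
          ← conj_inv, i1, inv_inv]))
      have i3 := (Subgroup.mul_mem_cancel_left _ (pow_mem i2 m)).1 (show ((u * t) ^ 2) ^ m * (u * t) ∈ C_[y] by
        rw [← pow_mul, ← pow_succ, ← hm, pow_orderOf_eq_one]; exact one_mem _)
      rw [mem_cent1.1 i3, mul_inv_cancel_right] at i1
      exact absurd (us y yL (ord2 (eq_inv_iff_mul_eq_one.1 i1) y0) b hb _ hc y1 y2) ne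
    · obtain ⟨c, hc', e'⟩ := f2 o (norm_inf' (le_norm L h.tL) (cj_eq_self_iff.1 (by
        rw [cj_cent1, iv]; ext; rw [mem_cent1_comm, inv_mem_iff, mem_cent1_comm]))) (sq1 h.t2) (h.tr ⟨hb, y1⟩ ⟨hc, y2⟩)
      rw [h.fx_eq ⟨hb, y1⟩] at hc'
      exact h.uq hc'.1 e' ▸ hc'.2
  obtain ⟨g, hg, rfl⟩ := id hb
  have k := (h.conj hg).conj h.tL
  have := Set.eq_of_subset_of_ncard_le sub ((Set.ncard_le_ncard fun u hu => ?_).trans (Set.ncard_image_le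
    (f := fun w => g⁻¹ * (w⁻¹ * (t * (g * t * g⁻¹) * t⁻¹) * w) * g)))
  · obtain ⟨c, -, l⟩ := h.pt hv
    have va := h.cz l.tL F.tC
    obtain ⟨-, -, e⟩ := this.ge ⟨l.tL, F.hv, va⟩
    refine bt (us _ (mul_mem h.tL l.tL) F.hm a orb_self _ hb (mem_cent1_comm.1 (mul_mem (mem_cent1_comm.1 h.ta)
      (mem_cent1_comm.1 va))) (mem_cent1.2 (mul_inv_eq_iff_eq_mul.1 ?_).symm) ▸ h.ta)
    generalize g * a * g⁻¹ = b at e
    rw [show t * v * b * (t * v)⁻¹ = t * (v * b * v⁻¹) * t⁻¹ by group, e,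
      show t * (t * b * t⁻¹) * t⁻¹ = t * t * b * (t * t)⁻¹ by group, sq1 h.t2]; simp
  obtain ⟨uL, u2, ua⟩ := hu
  have uL' := mul_mem (mul_mem hg uL) (inv_mem hg)
  have u2' := (BG.orderOf_conj g u).trans u2
  have ub : g * a * g⁻¹ ∈ C_[g * u * g⁻¹] := cj_cent1 g u ▸ conj_mem_cj g ua
  obtain ⟨x, hx, e, -⟩ := (ev' _ uL' _ k.tL u2' k.t2 _ hb _ hc ub k.ta).resolve_left ne
  have xL := zpowers_le.2 (mul_mem uL' k.tL) hx
  have iv := (inv_zp (sq1 u2') (sq1 k.t2) hx).1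
  have f : x * (g * u * g⁻¹) * (g * a * g⁻¹) * (x * (g * u * g⁻¹))⁻¹ = t * (g * a * g⁻¹) * t⁻¹ := by
    rw [mul_assoc x, ← mem_cent1.1 ub, mul_inv_rev, ← mul_assoc, ← mul_assoc x, mul_inv_cancel_right]
    exact k.uq (orb_eq hc ▸ orb_conj hb xL) (e ▸ cj_cent1 x _ ▸ conj_mem_cj x ub)
  refine ⟨x * (g * u * g⁻¹), ⟨mul_mem xL uL', ord2 ?_ fun j => ne (by rw [← f, j]; simp), f⟩, by simp only; rw [e]; group⟩
  rw [inv2 u2'] at iv
  rw [mul_assoc, ← mul_assoc _ x, iv, mul_inv_cancel]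
end Mn

theorem main (h : Hy r L a t) : ∀ g ∈ L, g * a * g⁻¹ * a⁻¹ ∈ piCoreOf {2}ᶜ L := by
  induction hn : Nat.card L using Nat.strong_induction_on generalizing G with
  | _ n ih =>
  subst hn
  intro g hg
  obtain ⟨N, hN⟩ : ∃ N, N = L ⊓ centralizer (orb L a) := ⟨_, rfl⟩
  have mN : ∀ {x}, x ∈ N ↔ x ∈ L ∧ ∀ b ∈ orb L a, b ∈ C_[x] := by
    intro x; rw [hN, mem_inf, mem_centralizer_iff]; simp only [mem_cent1]
  have NL : N ≤ L := fun _ e => (mN.1 e).1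
  have LN : L ≤ N_(N) := le_norm_iff.2 fun x hx y hy => mN.2 ⟨mul_mem (mul_mem hx (NL hy)) (inv_mem hx), fun b hb => by
    rw [← cj_cent1, mem_cj]; simpa using (mN.1 hy).2 _ (orb_conj hb (inv_mem hx))⟩
  have oN : ∀ b ∈ orb L a, b ∈ C_(N) := fun b hb => le_cent1_iff.1 fun x hx => mem_cent1_comm.1 ((mN.1 hx).2 b hb)
  by_cases tN : t ∈ N
  · rw [h.uq ⟨g, hg, rfl⟩ ((mN.1 tN).2 _ ⟨g, hg, rfl⟩), mul_inv_cancel]; exact one_mem _
  by_cases N0 : N = ⊥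
  · by_cases iso : ∀ g ∈ L, Commute t (g * t * g⁻¹) → g * t * g⁻¹ = t
    · have o := H02.pPrimeCoreOf_coprime (p := 2) L
      have o' := (Nat.Prime.coprime_iff_not_dvd Nat.prime_two).1 o.symm
      obtain ⟨x, hx, e⟩ := cv Nat.prime_two o' (H02.le_normalizer_pPrimeCoreOf L h.tL) ((sq t).trans (sq1 h.t2))
        ((sq _).trans (sq1 (h.conj hg).t2)) (zstar_in h.tL (pg_zp2 h.t2) iso hg)
      have : x⁻¹ * g ∈ C_[a] := h.le (mem_inf.2 ⟨mul_mem (inv_mem (H02.pPrimeCoreOf_le L hx)) hg, mem_cent1.2 (by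
        rw [mul_assoc, mul_inv_eq_iff_eq_mul.1 e]; group)⟩)
      rw [show g * a * g⁻¹ = x * (x⁻¹ * g * a * (x⁻¹ * g)⁻¹) * x⁻¹ by group, mem_cent1.1 this, mul_inv_cancel_right]
      exact le_pcore_p' Nat.prime_two o' (H02.pPrimeCoreOf_le L) (H02.le_normalizer_pPrimeCoreOf L) (by
        simpa [mul_assoc] using mul_mem hx (conj_mem_of_norm (H02.normalizer_le_normalizer_pPrimeCoreOf L h.aN) (inv_mem hx)))
    push Not at iso
    obtain ⟨k, hk, e1, e2⟩ := iso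
    have n1 : ∀ x ∈ L, (∀ b ∈ orb L a, b ∈ C_[x]) → x = 1 := fun x h1 h2 => mem_bot.1 (N0 ▸ mN.2 ⟨h1, h2⟩)
    refine (Mn.false ⟨h, fun z zL z2 b u k uz => ih _ (card_lt (lt_of_le_of_ne inf_le_left fun e => ne1 z2 (n1 z zL ?_)))
      (k.sub zL uz) rfl, n1⟩ ⟨k, hk, rfl⟩ ⟨h.t2, (h.conj hk).t2, e2, e1⟩).elim
    have l := inf_eq_left.1 e
    rintro _ ⟨x, hx, rfl⟩
    exact mul_mem (mul_mem (l hx) (h.cz zL (l h.tL))) (inv_mem (l hx))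
  have aN := cent_le_norm N (oN a orb_self)
  have := ih _ (card_quo_lt' LN NL N0) (L := quo N L) (a := qmk N ⟨a, aN⟩) (t := qmk N ⟨t, LN h.tL⟩) ⟨h.hr, not_dvd_card_quo N h.cop,
    by rw [← qmk_pow, qmk_eq_one]; exact (show a ^ r ∈ N from h.a1 ▸ one_mem N), qmk_mem_norm aN h.aN, qmk_mem_quo h.tL _,
    ord2 (by rw [← qmk_mul, qmk_eq_one]; exact (show t * t ∈ N from sq1 h.t2 ▸ one_mem N)) (mt qmk_eq_one.1 tN), fun q hq => by
      obtain ⟨x, hx, xN, rfl⟩ := mem_quo.1 hq.1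
      have e := mul_inv_eq_one.2 (mul_inv_eq_iff_eq_mul.2 (mem_cent1.1 (mem_inf.1 hq).2))
      rw [← qmk_conj, ← qmk_inv, ← qmk_mul, qmk_eq_one] at e
      have := (h.conj hx).uq ((orb_eq (b := a) ⟨x, hx, rfl⟩).ge orb_self) (mem_cent1_comm.1 ((Subgroup.mul_mem_cancel_right _
        (inv_mem (mem_cent1_comm.1 h.ta))).1 (mem_cent1_comm.1 ((mN.1 e).2 a orb_self))))
      rw [mem_cent1, ← qmk_mul, ← qmk_mul]
      exact congrArg _ (Subtype.ext (eq_mul_inv_iff_mul_eq.1 this).symm)⟩ rfl _ (qmk_mem_quo hg (LN hg))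
  rw [← qmk_conj, ← qmk_inv, ← qmk_mul, qmk_mem_iff_coquo] at this
  obtain ⟨K, hK⟩ : ∃ K, K = coquo N (piCoreOf {2}ᶜ (quo N L)) ⊓ C_(N) := ⟨_, rfl⟩
  have KL : K ≤ L := hK ▸ inf_le_left.trans (coquo_le_of_le_quo NL (pcore_le _ _))
  have KC : K ≤ C_(N) := hK ▸ inf_le_right
  have nK : ∀ x, (hx : x ∈ N_(N)) → x ∈ N_(L) → x ∈ N_(K) := fun x hx e => hK ▸ norm_inf'
    (mem_norm_coquo hx (norm_le_norm_pcore _ _ (qmk_mem_norm hx e))) (norm_cent le_rfl hx)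
  obtain ⟨k, hk, e⟩ := cv h.hr (fun e => h.cop (e.trans (card_dvd_of_le KL))) (nK a aN h.aN) h.a1 (h.conj hg).a1
    (hK ▸ mem_inf.2 ⟨this, mul_mem (oN _ ⟨g, hg, rfl⟩) (inv_mem (oN a orb_self))⟩)
  obtain ⟨P, hP⟩ := sylow_exists Nat.prime_two K
  have PN : P ≤ N := (quo_eq_bot_iff ((hP.le.trans KL).trans LN)).1 (eq_bot_mono (pg_inf_eq_bot Nat.prime_two
    (pgroup_quo N (hP.pg Nat.prime_two)) (pcore_not_dvd Nat.prime_two (quo N L))) (le_inf le_rfl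
      (quo_le_of_le_coquo (hP.le.trans (hK ▸ inf_le_left)))))
  have KP := KC.trans (cent_anti PN)
  obtain ⟨H, d⟩ := hP.exists_compl (KP.trans (cent_le_norm P))
  have HO : H ≤ piCoreOf {2}ᶜ K := le_pcore_p' Nat.prime_two (d.relIndex_left ▸ hP.not_dvd' Nat.prime_two) d.le_right fun x hx => by
    obtain ⟨p, hp, y, hy, rfl⟩ := d.mem.1 hx
    exact mul_mem (cent_le_norm H (cent_symm (d.le_right.trans KP) hp)) (le_norm H hy)
  obtain ⟨y, hy, p, hp, rfl⟩ := d.mem'.1 hk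
  rw [e, show y * p * a * (y * p)⁻¹ = y * (p * a * p⁻¹) * y⁻¹ by group, mem_cent.1 (oN a orb_self) p (PN hp), mul_inv_cancel_right]
  exact pcore_le_of_norm _ KL (fun x hx => nK x (LN hx) (le_norm L hx)) (by
    simpa [mul_assoc] using mul_mem (HO hy) (conj_mem_of_norm (norm_le_norm_pcore _ _ (nK a aN h.aN)) (inv_mem (HO hy))))

end H08.Ca
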