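import Cfsg.Agent.H19.Dm0
import Cfsg.Agent.S0111

/-!
# Part A4 of the 3-local characterization of `S₈`
-/

set_option autoImplicit false

namespace H08.Dm
open Equiv Subgroup H19.Dm

theorem conj_of_card {x y : Perm (Fin 8)} (hx : x ^ 2 = 1) (hy : y ^ 2 = 1) (h : x.support.card = y.support.card) : IsConj x y := by
  have := Fact.mk Nat.prime_two
  have a := Perm.cycleType_of_pow_prime_eq_one hx
  have b := Perm.cycleType_of_pow_prime_eq_one hy
  have c := x.sum_cycleType
  have d := y.sum_cycleType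
  rw [a, Multiset.sum_replicate, smul_eq_mul] at c
  rw [b, Multiset.sum_replicate, smul_eq_mul] at d
  rw [Perm.isConj_iff_cycleType_eq, a, b]
  congr 1
  omega

theorem cls {x : Perm (Fin 8)} (hx : x ^ 2 = 1) (h1 : x ≠ 1) : IsConj x (swap 6 7) ∨ IsConj x (swap 3 4 * swap 6 7) ∨
    IsConj x (swap 0 3 * swap 1 4 * swap 2 5) ∨ IsConj x (swap 0 3 * swap 1 4 * swap 2 5 * swap 6 7) := by
  have := Fact.mk Nat.prime_two
  have c := x.sum_cycleType
  rw [Perm.cycleType_of_pow_prime_eq_one hx, Multiset.sum_replicate, smul_eq_mul] at c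
  have d : x.support.card ≤ 8 := by simpa using x.support.card_le_univ
  have e : x.support.card ≠ 0 := by simpa using h1
  have f : x.support.card = 2 ∨ x.support.card = 4 ∨ x.support.card = 6 ∨ x.support.card = 8 := by omega
  refine f.imp (fun f => ?_) (Or.imp (fun f => ?_) (Or.imp (fun f => ?_) fun f => ?_)) <;>
    exact conj_of_card hx (by decide +kernel) (f.trans (by decide +kernel))

theorem cc : Nat.card (centralizer ({swap 6 7} : Set (Perm (Fin 8)))) = 1440 := by
  rw [Perm.nat_card_centralizer, Perm.isSwap_iff_cycleType.1 ⟨6, 7, by decide, rfl⟩]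
  simp [Nat.factorial]

variable {G : Type*} [Group G] [Finite G] {F : P35 →* G} {s : G}

theorem a4 (h : Hy F s) (ct : CT F s) (pi : PI F) (ps : PS F s) : IX F := by
  obtain ⟨π, hπ, hk⟩ := pi
  obtain ⟨ψ, hi, e1, e2, e3⟩ := ps
  have := Fact.mk Nat.prime_two
  have t1 : F t ≠ 1 := fun q => absurd (h.inj (q.trans (map_one F).symm)) (by decide +kernel)
  have t2 : F t ^ 2 = 1 := by rw [sq, ← map_mul, k0.1, map_one]
  have c1 : Nat.card (centralizer ({F t} : Set G)) = 1440 := by
    have a : Nat.card π.ker = 2 := by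
      rw [Nat.card_eq_two_iff]
      refine ⟨1, ⟨⟨F t, mem_centralizer_singleton_iff.2 rfl⟩, (hk _).2 (.inr rfl)⟩, fun q => t1 (congrArg (·.1.1) q).symm, ?_⟩
      refine Set.eq_univ_of_forall fun x => ?_
      rcases (hk x.1).1 x.2 with q | q
      · exact .inl (Subtype.ext (Subtype.ext q))
      · exact .inr (Subtype.ext (Subtype.ext q))
    rw [← π.ker.card_mul_index, a, index_ker, MonoidHom.range_eq_top.2 hπ, card_top, Nat.card_perm]
    simp [Nat.factorial]
  have c2 : centralizer ({F t} : Set G) ≤ ψ.range := by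
    have a : (centralizer ({swap 6 7} : Set (Perm (Fin 8)))).map ψ ≤ centralizer ({F t} : Set G) := by
      rintro _ ⟨x, hx, rfl⟩
      rw [mem_centralizer_singleton_iff, ← e1, ← map_mul, ← map_mul, mem_centralizer_singleton_iff.1 hx]
    rw [← eq_of_le_of_card_ge a (by rw [c1, card_map_of_injective hi, cc])]
    exact map_le_range _ _
  have zz : F z * F z' = F z' * F z := by rw [← map_mul, ← map_mul]; exact congrArg F (by decide +kernel)
  have sc : s * F (z * z') = F (z * z') * s := by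
    have a := h.sm (F z) (F z')
    rw [h.sz, h.sz', ← zz, ← map_mul] at a
    calc _ = s * F (z * z') * s * s := by rw [mul_assoc _ s s, h.s2, mul_one]
      _ = _ := by rw [a]
  have tc : F t * F (z * z') = F (z * z') * F t := by rw [← map_mul, ← map_mul]; exact congrArg F (by decide +kernel)
  have c3 (x) (hx : IsConj (F t) (ψ x)) : IsConj x (swap 6 7) := by
    obtain ⟨g, hg⟩ := isConj_iff.1 hx
    have a : x ^ 2 = 1 := hi (by rw [map_pow, ← hg, conj_pow, t2, map_one]; group)
    have b : x ≠ 1 := fun q => t1 (by rw [q, map_one] at hg; simpa using hg)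
    rcases cls a b with q | q | q | q
    · exact q
    · exact absurd (e2 ▸ hx.trans (ψ.map_isConj q)) ct.2.1
    · exact absurd (hi (e3.trans ((ct.1 s (e3 ▸ hx.trans (ψ.map_isConj q)) sc).trans e1.symm))) (by decide +kernel)
    · have r := hx.trans (ψ.map_isConj q)
      rw [map_mul, e3, e1] at r
      have r2 := ct.1 _ r (by rw [mul_assoc, tc, ← mul_assoc, sc, mul_assoc])
      exact absurd (hi (e3.trans ((mul_eq_right.1 r2).trans (map_one ψ).symm))) (by decide +kernel)
  obtain ⟨S, hS⟩ := IsPGroup.exists_le_sylow (p := 2) (P := zpowers (swap 6 7 : Perm (Fin 8)))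
    (IsPGroup.of_card (n := 1) (by rw [Nat.card_zpowers, orderOf_eq_prime (p := 2) (by decide +kernel) (by decide +kernel)]; rfl))
  replace hS := hS (mem_zpowers _)
  obtain ⟨P, hP⟩ := (S.isPGroup'.map ψ).exists_le_sylow
  have tT : F t ∈ S.1.map ψ := ⟨_, hS, e1⟩
  have c4 : S.1.map ψ = P := by
    by_contra c
    have := P.isPGroup'.isNilpotent
    obtain ⟨g, g1, g2⟩ := SetLike.exists_of_lt (normalizerCondition_of_isNilpotent ((S.1.map ψ).subgroupOf P) (lt_top_iff_ne_top.2
      fun r => c (le_antisymm hP (subgroupOf_eq_top.1 r))))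
    obtain ⟨x, -, hx⟩ : g.1 * F t * g.1⁻¹ ∈ S.1.map ψ := (mem_normalizer_iff.1 g1 ⟨_, hP tT⟩).1 tT
    obtain ⟨y, hy⟩ := isConj_iff.1 (c3 x (isConj_iff.2 ⟨_, hx.symm⟩))
    obtain ⟨a, ha⟩ := c2 (x := ψ y * g.1) (by
      rw [mem_centralizer_singleton_iff, ← mul_inv_eq_iff_eq_mul]
      calc _ = ψ y * (g.1 * F t * g.1⁻¹) * (ψ y)⁻¹ := by group
        _ = _ := by rw [← hx, ← map_inv, ← map_mul, ← map_mul, hy, e1])
    have b : ψ (y⁻¹ * a) = g.1 := by rw [map_mul, map_inv, ha, inv_mul_cancel_left]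
    have d := S.is_maximal' (P.isPGroup'.comap_of_injective ψ hi) (map_le_iff_le_comap.1 hP)
    exact g2 ⟨y⁻¹ * a, d.le (show ψ _ ∈ P.1 from b ▸ g.2), b⟩
  have nA : (swap 6 7 : Perm (Fin 8)) ∉ alternatingGroup (Fin 8) := by
    rw [Perm.mem_alternatingGroup]; decide +kernel
  have c5 : ((alternatingGroup (Fin 8) ⊓ S.1).map ψ).relIndex P = 2 := by
    rw [← c4, relIndex_map_map_of_injective _ _ hi, inf_relIndex_right]
    have a := relIndex_dvd_index_of_normal (alternatingGroup (Fin 8)) S.1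
    rw [alternatingGroup.index_eq_two] at a
    exact ((Nat.dvd_prime Nat.prime_two).1 a).resolve_left fun q => nA (relIndex_eq_one.1 q hS)
  have c6 (g : G) : g * F t * g⁻¹ ∉ (alternatingGroup (Fin 8) ⊓ S.1).map ψ := by
    rintro ⟨x, hx, e⟩
    obtain ⟨y, hy⟩ := isConj_iff.1 (c3 x (isConj_iff.2 ⟨_, e.symm⟩))
    exact nA (hy ▸ Subgroup.Normal.conj_mem inferInstance _ hx.1 y)
  obtain ⟨M, -, m1, m2⟩ | ⟨g, hg⟩ := Cfsg.Agent.S0111.result P _ (c4 ▸ map_mono inf_le_right) c5 (F t) (orderOf_eq_prime t2 t1)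
    (hP tT) (by simpa using c6 1)
  · exact ⟨M, m1, m2⟩
  · exact absurd hg (c6 g)

end H08.Dm
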