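import Cfsg.Agent.H06.PT1
import Cfsg.Agent.BG.Quo2
set_option autoImplicit false
open Cfsg BG Subgroup
open scoped commutatorElement
universe u
namespace Cfsg.Agent.H08.PtB2
open Cfsg.Agent.H06.PT

variable {Γ : Type u} [Group Γ] [Finite Γ] {r t : ℕ} {A H : Subgroup Γ}

theorem stq (h : St r A H) {N : Subgroup Γ} (hA : A ≤ N_(N)) (hH : H ≤ N_(N)) : St r (quo N A) (quo N H) :=
  (h.sgo hA hH).map (qmk N)

theorem cen (h3 : L3S.{u}) (h : R2 r A H) (hs : Group.IsSolvable H) (hO : piCoreOf {2}ᶜ H = ⊥) (ht : t.Prime)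
    (t2 : t ≠ 2) :
    quo (piCoreOf {2} H) (Syl 2 A H) ≤ C_(piCoreOf {t} (quo (piCoreOf {2} H) H)) := by
  have two := Nat.prime_two
  set V := piCoreOf {2} H with hV
  set S := Syl 2 A H with hS
  have lV : V ≤ H := pcore_le _ _
  have nV : H ≤ N_(V) := le_norm_pcore _ _
  have aV : A ≤ N_(V) := norm_pcore _ h.nG
  have pV : IsPGroup 2 V := pcore_pg two H
  set Y := piCoreOf {t} (quo V H) with hY
  set K := coquo V Y with hK
  have lK : K ≤ H := coquo_le_of_le_quo lV (pcore_le _ _)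
  have nK : H ≤ N_(K) := norm_coquo_piCoreOf nV (le_norm H)
  have aK : A ≤ N_(K) := norm_coquo_piCoreOf aV h.nG
  have sK := h.toSt.sub lK aK
  set D0 := Syl t A K with hD0
  have lD : D0 ≤ K := syl_le
  have aD : A ≤ N_(D0) := sK.syl_n ht
  have pD : IsPGroup t D0 := sK.syl_pg ht
  have qD : quo V D0 = Y := by
    have := hall_quo (lK.trans nV) (sK.syl ht)
    rw [hK, quo_coquo] at this
    exact this.eq_self (pcore_isPi _ _)
  have lS : S ≤ H := syl_le
  have aS : A ≤ N_(S) := h.toSt.syl_n two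
  set M := K ⊔ S with hM
  have lM : M ≤ H := sup_le lK lS
  set N := M ⊓ N_(D0) with hN
  have lN : N ≤ H := inf_le_left.trans lM
  have aN : A ≤ N_(N) := norm_inf (norm_sup aK aS) (norm_norm aD)
  have sN := h.toSt.sub lN aN
  have fr : K ⊔ N = M := sylow_frattini ht (sK.syl ht) le_sup_left (lM.trans nK)
  have DN : D0 ≤ N := le_inf (lD.trans le_sup_left) (le_norm _)
  have qN : quo V N = quo V M := by
    rw [← fr, quo_sup (lK.trans nV) (lN.trans nV), hK, quo_coquo, ← qD]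
    exact (sup_eq_right.2 (quo_mono V DN)).symm
  set S1 := Syl 2 A N with hS1
  have l1 : S1 ≤ N := syl_le
  have a1 : A ≤ N_(S1) := sN.syl_n two
  have p1 : IsPGroup 2 S1 := sN.syl_pg two
  have S1S : S1 ≤ S := h.toSt.syl_mono two lN aN
  have qS : quo V S = quo V S1 := by
    have := hall_quo (lN.trans nV) (sN.syl two)
    rw [qN] at this
    exact this.eq_of_le (pi_quo V ((isPi_singleton two).2 (h.toSt.syl_pg two))) (quo_mono V S1S)
      (quo_mono V le_sup_right)
  have c1 : S1 ≤ C_(D0) := by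
    refine h.dec (l1.trans lN) a1 fun c hc c1 => ?_
    set U := S1 ⊓ C_[c] with hU
    have lU : U ≤ H := inf_le_left.trans (l1.trans lN)
    have pU : IsPGroup 2 U := pg_le p1 inf_le_left
    have aU : A ≤ N_(U) := norm_inf a1 (h.toSt.nc hc)
    have UD : U ≤ N_(D0) := inf_le_left.trans (l1.trans inf_le_right)
    have lD' : ⁅D0, U⁆ ≤ D0 := comm_le_left UD
    have lD2 : ⁅D0, U⁆ ≤ H := lD'.trans (lD.trans lK)
    have k := h3 Γ r 2 t A H V U ⁅D0, U⁆ c h two ht t2.symm lV lU lD2 pV pU (pg_le pD lD') aV aU (norm_comm aD aU)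
      (lD2.trans nV) (lU.trans nV) (right_le_norm_comm _ _) hc c1 inf_le_right (h.toSt.two' lU pU aU)
      (coprime_comm_comm UD (pg_coprime_ne two ht pU pD t2.symm) (Or.inl (pg_sol two pU)))
    have k2 : ⁅D0, U⁆ ≤ V := (le_inf lD2 k).trans (cent_pcore_le two hs hO)
    have k3 : ⁅D0, U⁆ = ⊥ := by
      rw [eq_bot_iff, ← BG.inf_eq_bot_of_coprime (pg_coprime_ne ht two pD pV t2)]
      exact le_inf lD' k2
    exact cent_symm (comm_eq_bot.1 k3)
  rw [qS, ← qD]
  exact quo_le_cent V c1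

theorem step1 (h3 : L3S.{u}) (h : R2 r A H) (hs : Group.IsSolvable H) (hO : piCoreOf {2}ᶜ H = ⊥) :
    H ≤ N_(Syl 2 A H) := by
  have two := Nat.prime_two
  have nV : H ≤ N_(piCoreOf {2} H) := le_norm_pcore _ _
  have lS : Syl 2 A H ≤ H := syl_le
  have f1 : fittingOf (quo (piCoreOf {2} H) H) ≤ C_(quo (piCoreOf {2} H) (Syl 2 A H)) := by
    refine nil_le_of_pcores (fit_nil _) fun p hp _ => ?_
    rw [pcore_fit hp]
    by_cases p2 : p = 2
    · subst p2; rw [piCoreOf_quo_self]; exact bot_le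
    · exact cent_symm (cen h3 h hs hO hp p2)
  have f2 := (le_inf (quo_mono (piCoreOf {2} H) lS) (cent_symm f1)).trans (fit_cent_le (sol_quo _ hs))
  have f3 := le_pcore_of_le_fit (pi_quo _ ((isPi_singleton two).2 (h.toSt.syl_pg two))) f2
  rw [piCoreOf_quo_self, le_bot_iff, quo_eq_bot_iff (lS.trans nV)] at f3
  have e : Syl 2 A H = piCoreOf {2} H :=
    le_antisymm f3 (le_syl (pcore_le _ _) (pcore_pg two H) (norm_pcore _ h.nG))
  rw [e]; exact nV

theorem l2 (h1 : R1S.{u}) (h3 : L3S.{u}) : L2S.{u} := by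
  intro Γ _ _ r A H h hc hs
  have two := Nat.prime_two
  set O := piCoreOf {2}ᶜ H with hO
  have nO : H ≤ N_(O) := le_norm_pcore _ _
  have aO : A ≤ N_(O) := norm_pcore _ h.nG
  have hq := stq h aO nO
  have cq : Nat.card (quo O A) = r ^ 2 := by
    rw [card_quo_of_disj aO, hc]
    rw [inf_comm]; exact BG.inf_eq_bot_of_coprime (h.cop (pcore_le _ _))
  have sq : Group.IsSolvable (quo O H) := sol_quo _ hs
  have k := step1 h3 (n1 h1 hq cq fun _ _ _ => sol_of_le sq inf_le_left) sq (piCoreOf_quo_self _ _)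
  rw [hq.syl_eq_of two (hall_quo nO (h.syl two)) (quo_le_norm O (h.syl_n two))] at k
  rw [sup_comm]
  exact le_norm_sup_of_quo nO (syl_le.trans nO) k

end Cfsg.Agent.H08.PtB2
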