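import Cfsg.Agent.H08.PtB2
import Cfsg.Agent.S0515
import Cfsg.Agent.S0205
set_option autoImplicit false
open Cfsg BG Subgroup
open scoped commutatorElement
universe u
namespace Cfsg.Agent.H08.PtG
open Cfsg.Agent.H06.PT

variable {Γ : Type u} [Group Γ] [Finite Γ] {r : ℕ} {A G J : Subgroup Γ} {a : Γ}

omit [Finite Γ] in
/-- the norm of `x ∈ J` under `a` -/
theorem nrm (hJ : J ≤ G) (hG : a ∈ N_(G)) (har : a ^ r = 1)
    (hc : ∀ n : ℕ, 0 < n → n < r → cj (a ^ n) J ≤ C_(J)) (hr : 0 < r) : J ≤ C_(J) ⊔ (G ⊓ C_[a]) := by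
  intro x hx
  have key : ∀ n : ℕ, n < r → x⁻¹ * ((x * a) ^ (n + 1) * (a ^ (n + 1))⁻¹) ∈ G ⊓ C_(J) := by
    intro n
    induction n with
    | zero => intro _; simp only [zero_add, pow_one, mul_inv_cancel_right, inv_mul_cancel]; exact one_mem _
    | succ n ih =>
      intro hn
      have e : x⁻¹ * ((x * a) ^ (n + 1 + 1) * (a ^ (n + 1 + 1))⁻¹) =
          (x⁻¹ * ((x * a) ^ (n + 1) * (a ^ (n + 1))⁻¹)) * (a ^ (n + 1) * x * (a ^ (n + 1))⁻¹) := by
        rw [pow_succ (x * a) (n + 1), pow_succ a (n + 1)]; group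
      rw [e]
      refine mul_mem (ih (by omega)) ⟨conj_mem_of_norm (pow_mem hG _) (hJ hx), hc (n + 1) (by omega) hn (conj_mem_cj _ hx)⟩
  obtain ⟨m, rfl⟩ : ∃ m, r = m + 1 := ⟨r - 1, by omega⟩
  have k := key m (by omega)
  rw [har, inv_one, mul_one] at k
  set y := (x * a) ^ (m + 1) with hy
  have yG : y ∈ G := by simpa using mul_mem (hJ hx) k.1
  have c1 : x * (x⁻¹ * y) = (x⁻¹ * y) * x := mem_cent.1 k.2 x hx
  have c2 : y * x = x * y := by
    have : x * (x * (x⁻¹ * y)) = x * ((x⁻¹ * y) * x) := by rw [c1]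
    simpa [mul_assoc] using this.symm
  have c3 : y * (x * a) = (x * a) * y := by rw [hy, ← pow_succ, ← pow_succ']
  have c4 : y ∈ C_[a] := by
    rw [mem_cent1]
    have : x * (y * a) = x * (a * y) := by rw [← mul_assoc, ← c2, mul_assoc, c3, mul_assoc]
    exact mul_left_cancel this
  have e : x = y * (x⁻¹ * y)⁻¹ := by group
  rw [e]
  exact mul_mem (mem_sup_right ⟨yG, c4⟩) (mem_sup_left (inv_mem k.2))

theorem simple (h : St r A G) (ns : ¬ Group.IsSolvable G)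
    (sol : ∀ H : Subgroup Γ, H < G → A ≤ N_(H) → Group.IsSolvable H)
    (nn : ∀ N : Subgroup Γ, N ≤ G → G ≤ N_(N) → A ≤ N_(N) → N = ⊥ ∨ N = G) : IsSimpleGroup G := by
  have G0 : G ≠ ⊥ := by rintro rfl; exact ns (sol_of_abelian inferInstance)
  haveI : Nontrivial G := (nontrivial_iff_ne_bot G).2 G0
  refine ⟨fun N hN => ?_⟩
  by_contra hcon
  push Not at hcon
  set M := N.map G.subtype with hM
  have lM : M ≤ G := map_subtype_le N
  have eM : M.subgroupOf G = N := by rw [hM]; exact comap_map_eq_self_of_injective G.subtype_injective N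
  have nM : G ≤ N_(M) := (normal_subgroupOf_iff_le_normalizer lM).1 (eM ▸ hN)
  have M0 : M ≠ ⊥ := fun h0 => hcon.1 (by rw [← eM, h0]; simp)
  have MG : M ≠ G := fun h0 => hcon.2 (by rw [← eM, h0]; simp)
  obtain ⟨J, hJM, hJ⟩ := exists_minimal_le_of_wellFoundedLT (fun J : Subgroup Γ => J ≤ G ∧ G ≤ N_(J) ∧ J ≠ ⊥) M
    ⟨lM, nM, M0⟩
  obtain ⟨lJ, nJ, J0⟩ := hJ.prop
  have : ¬ A ≤ N_(J) := fun hA => by
    rcases nn J lJ nJ hA with h1 | h1
    · exact J0 h1
    · exact MG (le_antisymm lM (h1 ▸ hJM))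
  obtain ⟨a, ha, haJ⟩ := SetLike.not_le_iff_exists.1 this
  have a1 : a ≠ 1 := by rintro rfl; exact haJ (one_mem _)
  have hc : ∀ n : ℕ, 0 < n → n < r → cj (a ^ n) J ≤ C_(J) := by
    intro n n0 nr
    have hg : a ^ n ∈ N_(G) := pow_mem (h.nG ha) n
    have l1 : cj (a ^ n) J ≤ G := cj_le_of_mem_norm lJ hg
    have n1 : G ≤ N_(cj (a ^ n) J) := by rw [← cj_norm, ← cj_of_mem_norm hg]; exact cj_mono _ nJ
    refine le_cent_of_disj (l1.trans nJ) (lJ.trans n1) ?_
    by_contra h0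
    have := hJ.le_of_le (y := cj (a ^ n) J ⊓ J) ⟨inf_le_right.trans lJ, norm_inf n1 nJ, h0⟩ inf_le_right
    have h2 : a ^ n ∈ N_(J) := mem_norm_of_le_cj (this.trans inf_le_left)
    have c1 := h.ea.card_zpowers h.rp ha a1
    have an : a ^ n ≠ 1 := fun e => by
      have := orderOf_dvd_of_pow_eq_one e
      rw [h.ea.orderOf h.rp ha a1] at this
      exact absurd (Nat.le_of_dvd n0 this) (by omega)
    have := zpowers_eq_of_prime (c1 ▸ h.rp) (pow_mem (mem_zpowers a) n) an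
    exact haJ ((zpowers_le.2 h2) (this ▸ mem_zpowers a))
  have k := nrm lJ (h.nG ha) (h.ea.pow ha) hc h.rp.pos
  have lt : G ⊓ C_[a] < G := lt_of_le_of_ne inf_le_left fun he =>
    haJ (cent_le_norm J (cent_anti lJ (le_cent1_iff.1 (inf_eq_left.1 he))))
  have s1 := sol _ lt (norm_inf h.nG (h.nc ha))
  have nC : G ≤ N_(C_(J)) := norm_cent nJ
  have sJ : Group.IsSolvable J := by
    refine sol_of_quo (lJ.trans nC) (by rw [inf_comm]; exact sol_of_abelian (abelian_center J)) ?_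
    exact sol_of_le (sol_quo _ s1) ((quo_le_quo_iff (lJ.trans nC) (inf_le_left.trans nC)).2 k)
  have f0 := fit_inf_ne_bot sJ lJ nJ J0
  rcases nn (fittingOf G) (fit_le G) (le_norm_fit G) (norm_fit h.nG) with h1 | h1
  · exact f0 (by rw [h1, bot_inf_eq])
  · exact ns (h1 ▸ sol_of_nil (fit_nil G))

theorem redA (hM : MnS.{u}) : AllS.{u} := by
  suffices H : ∀ (n : ℕ) (Γ : Type u) [Group Γ] [Finite Γ] (r : ℕ) (A G : Subgroup Γ), Nat.card G = n → St r A G →
      Group.IsSolvable G from fun Γ _ _ r A G h => H _ Γ r A G rfl h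
  intro n
  induction n using Nat.strong_induction_on with
  | _ n ih =>
  intro Γ _ _ r A1 G hn h1
  by_contra ns
  obtain ⟨A, hA⟩ := h1.ea.exists_compl h1.rp (inf_le_left : A1 ⊓ C_(G) ≤ A1)
  have inv : ∀ X ≤ G, A ≤ N_(X) → A1 ≤ N_(X) := fun X hX hn => by
    rw [← hA.sup]
    exact sup_le (le_norm_of_cent (inf_le_right.trans (cent_anti hX))) hn
  have h : St r A G := by
    refine ⟨h1.rp, h1.ea.of_le hA.le_right, hA.le_right.trans h1.nG, h1.rG, fun q X Y hq hX hY pX pY nX nY =>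
      h1.uq q X Y hq hX hY pX pY (inv X hX nX) (inv Y hY nY), not_dvd_of_le h1.od (le_inf inf_le_left ?_)⟩
    rw [← hA.sup]
    exact le_cent_sup (inf_le_left.trans (cent_symm inf_le_right)) inf_le_right
  have fa : A ⊓ C_(G) = ⊥ := by
    rw [eq_bot_iff, ← hA.disj]
    exact le_inf (inf_le_inf_right _ hA.le_right) inf_le_left
  have sol : ∀ H : Subgroup Γ, H < G → A ≤ N_(H) → Group.IsSolvable H := fun H hH nH =>
    ih _ (hn ▸ card_lt hH) Γ r A H rfl (h.sub hH.le nH)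
  have nn : ∀ N : Subgroup Γ, N ≤ G → G ≤ N_(N) → A ≤ N_(N) → N = ⊥ ∨ N = G := by
    intro N lN nN aN
    by_contra hcon
    push Not at hcon
    refine ns (sol_of_quo nN (sol_of_le (sol N (lt_of_le_of_ne lN hcon.2) aN) inf_le_left) ?_)
    exact ih _ (hn ▸ card_quo_lt' nN lN hcon.1) _ r _ _ rfl (PtB2.stq h aN nN)
  have m : Mn r A G := ⟨h, simple h ns sol nn, ns, sol, fa⟩
  obtain ⟨k, hk⟩ := pg_card h.rp h.pg
  rcases k with _ | _ | _ | k
  · have e : A = ⊥ := BG.card_eq_one.1 (by simpa using hk)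
    have := h.od
    rw [e, cent_bot, inf_top_eq] at this
    exact ns (Cfsg.Agent.S0205.result (Nat.odd_iff.2 (by omega)))
  · exact hM Γ r A G m (Or.inl (by simpa using hk))
  · exact hM Γ r A G m (Or.inr hk)
  · haveI := Fact.mk h.rp
    refine ns (Cfsg.Agent.S0515.result r A G h.ea.1 h.ea.2 ?_ ((Nat.Prime.coprime_iff_not_dvd h.rp).2 h.rG).symm h.nG
      fun a ha a1 => sol _ (m.ca ha a1) (norm_inf h.nG (h.nc ha)))
    rw [hk]; exact Nat.pow_le_pow_right h.rp.pos (by omega)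

end Cfsg.Agent.H08.PtG
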